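import Mathlib
import Cfsg.Prelude.Def_ChevE7
import Cfsg.Prelude.Def_ChevE6
import Cfsg.Prelude.Def_ChevStructure
import Cfsg.Prelude.Def_Solvable

/-!
# S5934: interface of the boxes (helper27)

`G7` is `E₇(2)`. Every box is a `Prop`; the owner proves it in his own file
(`theorem box_... : Box...`). Assembly: helper27.
-/

set_option autoImplicit false

namespace Cfsg.Agent.R2.H27

open Subgroup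

/-- `E₇(2)` -/
abbrev G7 : Type := ↥(Cfsg.Lie.chevE7.group (ZMod 2))

/-- `|E₇(2)|` -/
def N7 : ℕ := 2 ^ 63 * 3 ^ 11 * 5 ^ 2 * 7 ^ 3 * 11 * 13 * 17 * 19 * 31 * 43 * 73 * 127
def oE6 : ℕ := 2 ^ 36 * 3 ^ 6 * 5 ^ 2 * 7 ^ 3 * 13 * 17 * 31 * 73
def oTE6 : ℕ := 2 ^ 36 * 3 ^ 9 * 5 ^ 2 * 7 ^ 2 * 11 * 13 * 17 * 19
def oO12 : ℕ := 2 ^ 30 * 3 ^ 8 * 5 ^ 2 * 7 ^ 2 * 11 * 17 * 31
def oL8 : ℕ := 2 ^ 28 * 3 ^ 5 * 5 ^ 2 * 7 ^ 2 * 17 * 31 * 127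
def oU8 : ℕ := 2 ^ 28 * 3 ^ 9 * 5 ^ 2 * 7 * 11 * 17 * 43
def oL6 : ℕ := 2 ^ 15 * 3 ^ 4 * 5 * 7 ^ 2 * 31
def oL3 : ℕ := 2 ^ 3 * 3 * 7
def oU6 : ℕ := 2 ^ 15 * 3 ^ 6 * 5 * 7 * 11
def oO8 : ℕ := 2 ^ 12 * 3 ^ 5 * 5 ^ 2 * 7
def oL2e : ℕ := 2 ^ 3 * 3 ^ 2 * 7
def oTD4 : ℕ := 2 ^ 12 * 3 ^ 4 * 7 ^ 2 * 13
def oL128 : ℕ := 2 ^ 7 * 3 * 43 * 127
def oS6 : ℕ := 2 ^ 9 * 3 ^ 4 * 5 * 7
def oG2 : ℕ := 2 ^ 5 * 3 ^ 3 * 7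
def oFi22 : ℕ := 2 ^ 17 * 3 ^ 9 * 5 ^ 2 * 7 * 11 * 13

/-! ## Box X/F context: properties of subgroups `M` of `E₇(2)` with `O₂(M) = 1` -/

/-- properties inherited by all subgroups of `E₇(2)` -/
structure Sub7 (M : Type*) [Group M] : Prop where
  fin : Finite M
  card : Nat.card M ∣ N7
  c127 : ∀ z : M, orderOf z = 127 → Nat.card (centralizer {z} : Subgroup M) ∣ 127
  c73 : ∀ z : M, orderOf z = 73 → Nat.card (centralizer {z} : Subgroup M) ∣ 73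
  c43 : ∀ z : M, orderOf z = 43 → Nat.card (centralizer {z} : Subgroup M) ∣ 129
  c19 : ∀ z : M, orderOf z = 19 → Nat.card (centralizer {z} : Subgroup M) ∣ 171
  n65 : ∀ z : M, orderOf z ≠ 65
  n13 : ∀ z : M, orderOf z ≠ 13 * 11 ∧ orderOf z ≠ 13 * 17 ∧ orderOf z ≠ 13 * 31
  notTE6 : ∀ X : Subgroup M, IsSimpleGroup ↥X → Nat.card ↥X ≠ oTE6

/-- context of the F-box -/
structure Ctx (M : Type*) [Group M] : Prop extends Sub7 M where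
  core : Cfsg.pCore 2 M = ⊥
  ne : Nat.card M ≠ N7

/-- Box X0 (helper14): `E₇(2)` and its subgroups satisfy `Sub7` -/
def BoxX0 : Prop := ∀ M : Subgroup G7, Sub7 ↥M

/-! ## Box F (helper14): abstract theorems about `M` with `Ctx M` -/

/-- 1: `X = E₆(2)` -/
def BoxF1 : Prop := ∀ (M : Type) [Group M], Ctx M → ∀ X : Subgroup M, IsSimpleGroup ↥X → Nat.card ↥X = oE6 →
  X.Normal ∧ Nat.card M ∣ 2 * oE6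
/-- 2: `X = 3·²E₆(2)` -/
def BoxF2 : Prop := ∀ (M : Type) [Group M], Ctx M → ∀ X : Subgroup M, ⁅X, X⁆ = X →
  IsSimpleGroup (↥X ⧸ center ↥X) → Nat.card ↥X = 3 * oTE6 → Nat.card ↥(center ↥X) = 3 →
  X.Normal ∧ Nat.card M ∣ 54 * oTE6 ∧ Nat.card ↥(Cfsg.pCore 3 M) ∣ 9
/-- 3: `X = Ω₁₂⁺(2)` -/
def BoxF3 : Prop := ∀ (M : Type) [Group M], Ctx M → ∀ X : Subgroup M, IsSimpleGroup ↥X → Nat.card ↥X = oO12 →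
  X.Normal ∧ Nat.card M ∣ 2 * oO12 * Nat.card (centralizer (X : Set M) : Subgroup M)
/-- 4: `X = L₈(2)` -/
def BoxF4 : Prop := ∀ (M : Type) [Group M], Ctx M → ∀ X : Subgroup M, IsSimpleGroup ↥X → Nat.card ↥X = oL8 →
  X.Normal ∧ Nat.card M ∣ 2 * oL8
/-- 5: `X = U₈(2)`; needs an element of order 129 in X (box X) to get `C(X) = 1` -/
def BoxF5 : Prop := ∀ (M : Type) [Group M], Ctx M → ∀ X : Subgroup M, IsSimpleGroup ↥X → Nat.card ↥X = oU8 →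
  X.Normal ∧ centralizer (X : Set M) = ⊥ ∧ Nat.card M ∣ 2 * oU8
/-- 6: `X = L₆(2)`, `Y = L₃(2)` -/
def BoxF6 : Prop := ∀ (M : Type) [Group M], Ctx M → ∀ X Y : Subgroup M, IsSimpleGroup ↥X → Nat.card ↥X = oL6 →
  IsSimpleGroup ↥Y → Nat.card ↥Y = oL3 → centralizer (X : Set M) = Y → centralizer (Y : Set M) = X →
  Nat.card M ∣ 4 * oL6 * oL3
/-- 7: `X = 3·U₆(2)` -/
def BoxF7 : Prop := ∀ (M : Type) [Group M], Ctx M → ∀ X : Subgroup M, ⁅X, X⁆ = X →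
  IsSimpleGroup (↥X ⧸ center ↥X) → Nat.card ↥X = 3 * oU6 → Nat.card ↥(center ↥X) = 3 →
  Nat.card (centralizer (X : Set M) : Subgroup M) ∣ 2 ^ 3 * 3 ^ 4 → 3 ^ 10 ∣ Nat.card M →
  Cfsg.pCore 3 M ≠ ⊥ ∧ Nat.card ↥(Cfsg.pCore 3 M) ∣ 3 ^ 5 ∧ Cfsg.pCore 3 M ≤ centralizer (X : Set M)
/-- 8: `X = Ω₈⁺(2)`, `C(X) = S₃ × S₃ × S₃` -/
def BoxF8 : Prop := ∀ (M : Type) [Group M], Ctx M → ∀ X : Subgroup M, IsSimpleGroup ↥X → Nat.card ↥X = oO8 →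
  Nat.card (centralizer (X : Set M) : Subgroup M) ∣ 2 ^ 3 * 3 ^ 3 → 3 ^ 9 ∣ Nat.card M →
  Cfsg.pCore 3 M ≤ centralizer (X : Set M) ∧ (Cfsg.pCore 3 M ≠ ⊥ ∨ ∃ L : Subgroup M, L.Normal ∧ IsSimpleGroup ↥L ∧
    centralizer (L : Set M) = ⊥ ∧ X ≤ L ∧
    ((Nat.card ↥L = oU8 ∧ Nat.card M ∣ 2 * oU8) ∨ (Nat.card ↥L = oFi22 ∧ Nat.card M ∣ 2 * oFi22)))
/-- 9: `X = ³D₄(2)`, `Y = L₂(8)` -/
def BoxF9 : Prop := ∀ (M : Type) [Group M], Ctx M → ∀ X Y : Subgroup M, IsSimpleGroup ↥X → Nat.card ↥X = oTD4 →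
  IsSimpleGroup ↥Y → Nat.card ↥Y = oL2e → Y ≤ centralizer (X : Set M) →
  centralizer (X : Set M) ⊓ centralizer (Y : Set M) = ⊥ →
  ¬ 17 ∣ Nat.card (centralizer (Y : Set M) : Subgroup M) → ¬ 5 ∣ Nat.card M ∧ ¬ 127 ∣ Nat.card M
/-- 10: `X = L₂(128)` -/
def BoxF10 : Prop := ∀ (M : Type) [Group M], Ctx M → ∀ X : Subgroup M, IsSimpleGroup ↥X → Nat.card ↥X = oL128 →
  Nat.card M ∣ 7 * oL128
/-- 11: `A = 3^7`, `N₀ = A.Sp₆(2)` -/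
def BoxF11 : Prop := ∀ (M : Type) [Group M], Ctx M → ∀ A N₀ : Subgroup M, Nat.card ↥A = 3 ^ 7 → A ≤ N₀ →
  N₀ ≤ normalizer (A : Set M) → ⁅N₀, N₀⁆ = N₀ → Nat.card ↥N₀ = 3 ^ 7 * oS6 →
  (∀ B : Subgroup M, B ≤ A → N₀ ≤ normalizer (B : Set M) → B = ⊥ ∨ B = A) → centralizer (A : Set M) = A →
  (∀ B : Subgroup M, A ≤ B → B ≤ N₀ → N₀ ≤ normalizer (B : Set M) → B = A ∨ B = N₀) →
  Nat.card ↥(Cfsg.pCore 3 M) = 3 ^ 7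

/-- 12: `X = Sp₆(2)`, `Y = U₃(3)` (no `O₂(M) = 1` needed) -/
def BoxF12 : Prop := ∀ (M : Type) [Group M], Sub7 M → ∀ X Y : Subgroup M, IsSimpleGroup ↥X → Nat.card ↥X = oS6 →
  IsSimpleGroup ↥Y → Nat.card ↥Y = oG2 → Y ≤ centralizer (X : Set M) →
  centralizer (X : Set M) ⊓ centralizer (Y : Set M) = ⊥ → Cfsg.pCore 3 M = ⊥

/-! ## Box X (helper14): small exclusions -/

/-- `3 × Ω₈⁺(2)` is not contained in `U₈(2)` -/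
def BoxX1 : Prop := ∀ (L : Type) [Group L], IsSimpleGroup L → Nat.card L = oU8 → ∀ X : Subgroup L, IsSimpleGroup ↥X →
  Nat.card ↥X = oO8 → ∀ c : L, orderOf c = 3 → c ∉ centralizer (X : Set L)
/-- no elements of order 117, 217 in `E₆(2)` -/
def BoxX2 : Prop := ∀ x : ↥(Cfsg.Lie.chevE6.group (ZMod 2)), orderOf x ≠ 117 ∧ orderOf x ≠ 217
/-- a `7`-element of `L₂(8)`, ... : `Y × X` has elements of order `9 · 13` -/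
def BoxX3 : Prop := ∀ (G : Type) [Group G], ∀ X Y : Subgroup G, IsSimpleGroup ↥X → Nat.card ↥X = oTD4 →
  IsSimpleGroup ↥Y → Nat.card ↥Y = oL2e → Y ≤ centralizer (X : Set G) → ∃ z ∈ X ⊔ Y, orderOf z = 117

/-! ## Boxes S (helper6): split subgroups -/

/-- 1: `E₆(2).2` -/
def BoxS1 : Prop := ∃ X H : Subgroup G7, Nonempty (↥X ≃* ↥(Cfsg.Lie.chevE6.group (ZMod 2))) ∧ X ≤ H ∧
  H ≤ normalizer (X : Set G7) ∧ Nat.card ↥H = 2 * Nat.card ↥X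
/-- 3: `S₃ × Ω₁₂⁺(2)` -/
def BoxS3 : Prop := ∃ X : Subgroup G7, IsSimpleGroup ↥X ∧ Nat.card ↥X = oO12 ∧
  Nat.card (centralizer (X : Set G7) : Subgroup G7) = 6
/-- 4: `L₈(2)` -/
def BoxS4 : Prop := ∃ X : Subgroup G7, IsSimpleGroup ↥X ∧ Nat.card ↥X = oL8
/-- 6: `L₃(2) × L₆(2)` -/
def BoxS6 : Prop := ∃ X Y : Subgroup G7, IsSimpleGroup ↥X ∧ Nat.card ↥X = oL6 ∧ IsSimpleGroup ↥Y ∧ Nat.card ↥Y = oL3 ∧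
  centralizer (X : Set G7) = Y ∧ centralizer (Y : Set G7) = X
/-- 8: `(S₃³ × Ω₈⁺(2)):3`; `E = ⟨c 0, c 1, c 2⟩` -/
def BoxS8 : Prop := ∃ (X H : Subgroup G7) (c t : Fin 3 → G7) (τ : G7), IsSimpleGroup ↥X ∧ Nat.card ↥X = oO8 ∧
  Nat.card (centralizer (X : Set G7) : Subgroup G7) = 2 ^ 3 * 3 ^ 3 ∧ X ≤ H ∧ centralizer (X : Set G7) ≤ H ∧ τ ∈ H ∧
  H ≤ normalizer (X : Set G7) ∧
  3 ^ 9 ∣ Nat.card ↥H ∧
  (∀ i, orderOf (c i) = 3 ∧ t i * c i * (t i)⁻¹ = (c i)⁻¹ ∧ c i ∈ centralizer (X : Set G7) ∧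
    t i ∈ centralizer (X : Set G7) ∧ τ * c i * τ⁻¹ = c (i + 1)) ∧
  (∀ i j, i ≠ j → Commute (c i) (c j) ∧ Commute (t i) (c j)) ∧
  (∀ P : Subgroup G7, IsPGroup 3 ↥P → centralizer (X : Set G7) ≤ normalizer (P : Set G7) →
    P ≤ centralizer (X : Set G7) → P ≤ Subgroup.closure (Set.range c)) ∧
  Nat.card ↥(Subgroup.closure (Set.range c)) = 27 ∧
  (∀ J : Subgroup G7, ⁅J, J⁆ = J → J ≤ centralizer (Set.range c) → ¬ 11 ∣ Nat.card ↥J)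
/-- 12: `U₃(3) × Sp₆(2)` -/
def BoxS12 : Prop := ∃ X Y : Subgroup G7, IsSimpleGroup ↥X ∧ Nat.card ↥X = oS6 ∧ IsSimpleGroup ↥Y ∧
  Nat.card ↥Y = oG2 ∧ Y ≤ centralizer (X : Set G7) ∧ centralizer (X : Set G7) ⊓ centralizer (Y : Set G7) = ⊥

/-! ## Boxes T (helper7): twisted forms -/

/-- 2: `3·²E₆(2)` -/
def BoxT2 : Prop := ∃ X : Subgroup G7, ⁅X, X⁆ = X ∧ IsSimpleGroup (↥X ⧸ center ↥X) ∧ Nat.card ↥X = 3 * oTE6 ∧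
  Nat.card ↥(center ↥X) = 3
/-- 5: `U₈(2)` -/
def BoxT5 : Prop := ∃ X : Subgroup G7, IsSimpleGroup ↥X ∧ Nat.card ↥X = oU8
/-- 7: `X = 3·U₆(2)`, `z ∈ Z(X)`, `A = 3^7 ≤ C(z)` -/
def BoxT7 : Prop := ∃ (X A : Subgroup G7) (z : G7), ⁅X, X⁆ = X ∧ IsSimpleGroup (↥X ⧸ center ↥X) ∧
  Nat.card ↥X = 3 * oU6 ∧ Nat.card ↥(center ↥X) = 3 ∧ z ∈ X ∧ orderOf z = 3 ∧ X ≤ centralizer {z} ∧
  Nat.card (centralizer (X : Set G7) : Subgroup G7) ∣ 2 ^ 3 * 3 ^ 4 ∧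
  3 ^ 10 ∣ Nat.card (centralizer {z} : Subgroup G7) ∧ ¬ 19 ∣ Nat.card (centralizer {z} : Subgroup G7) ∧
  A ≤ centralizer {z} ∧ IsPGroup 3 ↥A ∧ centralizer (A : Set G7) = A ∧
  (∀ e ∈ A, e ≠ 1 → centralizer {z} ≤ normalizer (zpowers e : Set G7) → zpowers e = zpowers z)
/-- 9: `L₂(8) × ³D₄(2)` -/
def BoxT9 : Prop := ∃ X Y : Subgroup G7, IsSimpleGroup ↥X ∧ Nat.card ↥X = oTD4 ∧ IsSimpleGroup ↥Y ∧
  Nat.card ↥Y = oL2e ∧ Y ≤ centralizer (X : Set G7) ∧ centralizer (X : Set G7) ⊓ centralizer (Y : Set G7) = ⊥ ∧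
  ¬ 17 ∣ Nat.card (centralizer (Y : Set G7) : Subgroup G7)
/-- 10: `L₂(128)` -/
def BoxT10 : Prop := ∃ X : Subgroup G7, IsSimpleGroup ↥X ∧ Nat.card ↥X = oL128
/-- 11: `3^7:Sp₆(2)` -/
def BoxT11 : Prop := ∃ A N₀ : Subgroup G7, Nat.card ↥A = 3 ^ 7 ∧ A ≤ N₀ ∧
  N₀ ≤ normalizer (A : Set G7) ∧ ⁅N₀, N₀⁆ = N₀ ∧ Nat.card ↥N₀ = 3 ^ 7 * oS6 ∧
  (∀ B : Subgroup G7, B ≤ A → N₀ ≤ normalizer (B : Set G7) → B = ⊥ ∨ B = A) ∧ centralizer (A : Set G7) = A ∧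
  (∀ B : Subgroup G7, A ≤ B → B ≤ N₀ → N₀ ≤ normalizer (B : Set G7) → B = A ∨ B = N₀)

end Cfsg.Agent.R2.H27
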