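import Cfsg.Agent.R2.H27.ClsC

/-!
# S5934, assembly (helper27)
-/

set_option autoImplicit false

namespace Cfsg.Agent.R2.H27.Asm

open Subgroup

/-- pairs not separated by the orders -/
theorem sepOrd : ∀ i j : Fin 12, i < j → Nat.lcm (lo i) (lo j) ∣ Nat.gcd (up i) (up j) →
    (i, j) ∈ [((1 : Fin 12), (6 : Fin 12)), (1, 7), (1, 10), (1, 11), (2, 7), (2, 11), (4, 7), (6, 7), (6, 10), (6, 11),
      (7, 10), (7, 11), (10, 11)] := by
  decide +kernel

theorem cls_dvd {i j : Fin 12} {M M' : Subgroup G7} (h : Cls i M) (h' : Cls j M') (hs : Sim M M') :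
    Nat.lcm (lo i) (lo j) ∣ Nat.gcd (up i) (up j) := by
  have h1 : Nat.lcm (lo i) (lo j) ∣ Nat.card ↥M := Nat.lcm_dvd h.lo (by rw [hs.card]; exact h'.lo)
  have h2 : Nat.card ↥M ∣ Nat.gcd (up i) (up j) := Nat.dvd_gcd h.up (by rw [hs.card]; exact h'.up)
  exact h1.trans h2

/-- the additional information on the classes -/
structure Info (N : Fin 12 → Subgroup G7) : Prop where
  cls : ∀ i, Cls i (N i)
  i2 : pc (N 1) ≠ 1 ∧ pc (N 1) ∣ 9
  e2 : Ex2G 19 (N 1)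
  i3 : pc (N 2) = 3
  i5 : pc (N 4) = 1
  i7 : pc (N 6) ≠ 1 ∧ pc (N 6) ∣ 3 ^ 5
  e7 : Ex7 19 (N 6)
  e7' : Ex7' 11 (N 6)
  i8 : pc (N 7) = 27 ∨ (pc (N 7) = 1 ∧ Nat.card ↥(N 7) ∣ 2 * oFi22)
  e8 : pc (N 7) ≠ 1 → Ex8 11 (N 7)
  i11 : pc (N 10) = 3 ^ 7
  i12 : pc (N 11) = 1

theorem Info.sep_lt {N : Fin 12 → Subgroup G7} (h : Info N) {i j : Fin 12} (hij : i < j) : ¬ Sim (N i) (N j) := by
  intro hs
  have h1 := sepOrd i j hij (cls_dvd (h.cls i) (h.cls j) hs)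
  have hp := hs.pc
  have hc := hs.card
  simp only [List.mem_cons, Prod.mk.injEq, List.not_mem_nil, or_false] at h1
  rcases h1 with ⟨rfl, rfl⟩ | ⟨rfl, rfl⟩ | ⟨rfl, rfl⟩ | ⟨rfl, rfl⟩ | ⟨rfl, rfl⟩ | ⟨rfl, rfl⟩ | ⟨rfl, rfl⟩ | ⟨rfl, rfl⟩ |
    ⟨rfl, rfl⟩ | ⟨rfl, rfl⟩ | ⟨rfl, rfl⟩ | ⟨rfl, rfl⟩ | ⟨rfl, rfl⟩
  · exact sp27 h.e2 h.e7 hs
  · have a := h.i2
    rw [hp] at a
    rcases h.i8 with b | b
    · rw [b] at a
      revert a; decide
    · exact a.1 b.1
  · have a := h.i2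
    rw [hp, h.i11] at a
    revert a; decide
  · have a := h.i2
    rw [hp, h.i12] at a
    exact a.1 rfl
  · have a := h.i3
    rw [hp] at a
    rcases h.i8 with b | b
    · rw [b] at a
      revert a; decide
    · rw [b.1] at a
      revert a; decide
  · have a := h.i3
    rw [hp, h.i12] at a
    revert a; decide
  · have a := h.i5
    rw [hp] at a
    rcases h.i8 with b | b
    · rw [b] at a
      revert a; decide
    · have c := (h.cls 4).lo
      rw [hc] at c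
      have d := c.trans b.2
      revert d
      decide +kernel
  · have a := h.i7.1
    rw [hp] at a
    exact sp78 h.e7' (h.e8 a) hs
  · have a := h.i7.2
    rw [hp, h.i11] at a
    revert a; decide
  · have a := h.i7.1
    rw [hp, h.i12] at a
    exact a rfl
  · have a := h.i11
    rw [← hp] at a
    rcases h.i8 with b | b
    · rw [b] at a
      revert a; decide
    · rw [b.1] at a
      revert a; decide
  · have a := h.i12
    rw [← hp] at a
    rcases h.i8 with b | b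
    · rw [b] at a
      revert a; decide
    · have c := (h.cls 11).lo
      rw [← hc] at c
      have d := c.trans b.2
      revert d
      decide +kernel
  · have a := h.i11
    rw [hp, h.i12] at a
    revert a; decide

theorem Info.sep {N : Fin 12 → Subgroup G7} (h : Info N) {i j : Fin 12} (hs : Sim (N i) (N j)) : i = j := by
  rcases lt_trichotomy i j with h1 | h1 | h1
  · exact absurd hs (h.sep_lt h1)
  · exact h1
  · exact absurd hs.symm (h.sep_lt h1)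

theorem final {N : Fin 12 → Subgroup G7} (h : Info N) :
    ∃ M : Fin 19 → Subgroup G7, (∀ i, IsCoatom (M i)) ∧
      ∀ i j, (∃ g : G7, (M i).map (MulAut.conj g).toMonoidHom = M j) → i = j := by
  have key : ∃ M : Fin (7 + 12) → Subgroup G7, (∀ i, IsCoatom (M i)) ∧ ∀ i j, Sim (M i) (M j) → i = j := by
    refine ⟨Fin.append Par.P7 N, ?_, ?_⟩
    · intro i
      refine Fin.addCases (fun i => ?_) (fun i => ?_) i
      · rw [Fin.append_left]; exact Par.isCoatom_P7 i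
      · rw [Fin.append_right]; exact (h.cls i).np.co
    · intro i j
      refine Fin.addCases (fun i => ?_) (fun i => ?_) i <;>
        refine Fin.addCases (fun j => ?_) (fun j => ?_) j
      · rw [Fin.append_left, Fin.append_left]
        rintro ⟨g, hg⟩
        rw [Par.nonconj hg]
      · rw [Fin.append_left, Fin.append_right]
        intro hs
        exact absurd hs ((h.cls j).np.np i)
      · rw [Fin.append_left, Fin.append_right]
        intro hs
        exact absurd hs.symm ((h.cls i).np.np j)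
      · rw [Fin.append_right, Fin.append_right]
        intro hs
        rw [h.sep hs]
  exact key

/-- the boxes -/
structure Boxes : Prop where
  x0 : BoxX0
  p6 : BoxP6
  x1 : BoxX1
  x2 : BoxX2
  x3 : BoxX3
  f1 : BoxF1
  f2 : BoxF2
  f3 : BoxF3
  f4 : BoxF4
  f5 : BoxF5
  f6 : BoxF6
  f7 : BoxF7
  f8 : BoxF8
  f9 : BoxF9
  f10 : BoxF10
  f11 : BoxF11
  f12 : BoxF12
  s1 : BoxS1
  t2 : BoxT2
  s3 : BoxS3
  s4 : BoxS4
  t5 : BoxT5
  s6 : BoxS6
  t7 : BoxT7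
  s8 : BoxS8
  t9 : BoxT9
  t10 : BoxT10
  t11 : BoxT11
  s12 : BoxS12

theorem Boxes.info (b : Boxes) : ∃ N, Info N := by
  obtain ⟨M1, c1⟩ := cls1 b.x0 b.p6 b.s1 b.f1
  obtain ⟨M2, c2, p2, X, hX1, hX2, hX3, hX4⟩ := cls2 b.x0 b.p6 b.t2 b.f2
  obtain ⟨M3, c3, p3⟩ := cls3 b.x0 b.p6 b.s3 b.f3
  obtain ⟨M4, c4⟩ := cls4 b.x0 b.p6 b.s4 b.f4
  obtain ⟨M5, c5, p5⟩ := cls5 b.x0 b.p6 b.t5 b.f5
  obtain ⟨M6, c6⟩ := cls6 b.x0 b.p6 b.x2 b.s6 b.f6
  obtain ⟨M7, c7, p7, e7, e7'⟩ := cls7 b.x0 b.p6 b.t7 b.f7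
  obtain ⟨M8, c8, p8, e8⟩ := cls8 b.x0 b.p6 b.x1 b.s8 b.f8
  obtain ⟨M9, c9⟩ := cls9 b.x0 b.p6 b.x2 b.x3 b.t9 b.f9
  obtain ⟨M10, c10⟩ := cls10 b.x0 b.p6 b.t10 b.f10
  obtain ⟨M11, c11, p11⟩ := cls11 b.x0 b.p6 b.t11 b.f11
  obtain ⟨M12, c12, p12⟩ := cls12 b.x0 b.p6 b.s12 b.f12
  refine ⟨![M1, M2, M3, M4, M5, M6, M7, M8, M9, M10, M11, M12], ?_, p2, ⟨X, hX1, hX2, ?_, hX4⟩, p3, p5, p7, e7, e7', p8, e8,
    p11, p12⟩
  · intro i
    match i with
    | 0 => exact c1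
    | 1 => exact c2
    | 2 => exact c3
    | 3 => exact c4
    | 4 => exact c5
    | 5 => exact c6
    | 6 => exact c7
    | 7 => exact c8
    | 8 => exact c9
    | 9 => exact c10
    | 10 => exact c11
    | 11 => exact c12
  · rw [hX3]
    decide +kernel

theorem assembly (b : Boxes) :
    ∃ M : Fin 19 → Subgroup G7, (∀ i, IsCoatom (M i)) ∧
      ∀ i j, (∃ g : G7, (M i).map (MulAut.conj g).toMonoidHom = M j) → i = j := by
  obtain ⟨N, hN⟩ := b.info
  exact final hN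

end Cfsg.Agent.R2.H27.Asm
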