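import Cfsg.Agent.R2.H27.UsG

/-!
# Box T7 of S5934: `3·U₆(2)` in `E₇(2)`, end (helper27)
-/

set_option autoImplicit false
set_option linter.unusedSectionVars false
set_option maxRecDepth 100000

namespace Cfsg.Agent.R2.H27.UsH

open Cfsg Cfsg.Lie
open Cfsg.Agent.R2.H27.UsA Cfsg.Agent.R2.H27.UsB Cfsg.Agent.R2.H27.UsC
  Cfsg.Agent.R2.H27.UsD Cfsg.Agent.R2.H27.UsE Cfsg.Agent.R2.H27.UsF Cfsg.Agent.R2.H27.UsG
open Cfsg.Agent.R2.H27.Asm Cfsg.Agent.R2.H27.TorD
open Matrix (SpecialLinearGroup)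
open Subgroup
open scoped commutatorElement

section Gen

variable {G : Type*} [Group G]

/-- the content of box T7 -/
structure IsT7 (X A : Subgroup G) (z : G) : Prop where
  perf : ⁅X, X⁆ = X
  simp : IsSimpleGroup (↥X ⧸ center ↥X)
  card : Nat.card ↥X = 3 * oU6
  cent : Nat.card ↥(center ↥X) = 3
  mem : z ∈ X
  ord : orderOf z = 3
  le : X ≤ centralizer {z}
  cX : Nat.card (centralizer (X : Set G) : Subgroup G) ∣ 2 ^ 3 * 3 ^ 4
  ten : 3 ^ 10 ∣ Nat.card (centralizer {z} : Subgroup G)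
  n19 : ¬ 19 ∣ Nat.card (centralizer {z} : Subgroup G)
  leA : A ≤ centralizer {z}
  pgA : IsPGroup 3 ↥A
  cA : centralizer (A : Set G) = A
  ee : ∀ e ∈ A, e ≠ 1 → centralizer {z} ≤ normalizer (zpowers e : Set G) → zpowers e = zpowers z

theorem map_centralizer {H : Type*} [Group H] (e : G ≃* H) (S : Set G) :
    (centralizer S).map e.toMonoidHom = centralizer (e '' S) := by
  ext x
  constructor
  · rintro ⟨g, hg, rfl⟩
    rw [mem_centralizer_iff]
    rintro _ ⟨s, hs, rfl⟩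
    show e s * e g = e g * e s
    rw [← map_mul, mem_centralizer_iff.1 hg s hs, map_mul]
  · intro hx
    refine ⟨e.symm x, ?_, by simp⟩
    rw [SetLike.mem_coe, mem_centralizer_iff]
    intro s hs
    apply e.injective
    rw [map_mul, map_mul, e.apply_symm_apply]
    exact mem_centralizer_iff.1 hx _ ⟨s, hs, rfl⟩

theorem card_map_equiv {H : Type*} [Group H] (e : G ≃* H) (X : Subgroup G) :
    Nat.card ↥(X.map e.toMonoidHom) = Nat.card ↥X :=
  (Nat.card_congr (X.equivMapOfInjective _ e.injective).toEquiv).symm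

theorem IsT7.map {X A : Subgroup G} {z : G} (h : IsT7 X A z) {H : Type*} [Group H] (e : G ≃* H) :
    IsT7 (X.map e.toMonoidHom) (A.map e.toMonoidHom) (e z) := by
  have hz : centralizer {e z} = (centralizer {z}).map e.toMonoidHom := by
    rw [map_centralizer, Set.image_singleton]
  have hX : centralizer ((X.map e.toMonoidHom : Subgroup H) : Set H) = (centralizer (X : Set G)).map e.toMonoidHom := by
    rw [map_centralizer]; rfl
  have hA : centralizer ((A.map e.toMonoidHom : Subgroup H) : Set H) = (centralizer (A : Set G)).map e.toMonoidHom := by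
    rw [map_centralizer]; rfl
  have eX : ↥X ≃* ↥(X.map e.toMonoidHom) := X.equivMapOfInjective _ e.injective
  refine ⟨?_, ?_, ?_, ?_, ?_, ?_, ?_, ?_, ?_, ?_, ?_, ?_, ?_, ?_⟩
  · rw [← Subgroup.map_commutator, h.perf]
  · exact Asm.simple_congr (Asm.centerCongr eX) h.simp
  · rw [card_map_equiv, h.card]
  · rw [← h.cent]; exact (Asm.card_center_congr eX).symm
  · exact ⟨z, h.mem, rfl⟩
  · have := orderOf_injective e.toMonoidHom e.injective z
    rw [← h.ord]; exact this
  · rw [hz]; exact Subgroup.map_mono h.le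
  · rw [hX, card_map_equiv]; exact h.cX
  · rw [hz, card_map_equiv]; exact h.ten
  · rw [hz, card_map_equiv]; exact h.n19
  · rw [hz]; exact Subgroup.map_mono h.leA
  · exact h.pgA.map e.toMonoidHom
  · rw [hA, h.cA]
  · rintro _ ⟨a, ha, rfl⟩ ha1 hn
    have h1 : a ≠ 1 := by
      rintro rfl
      exact ha1 (map_one _)
    have h2 : centralizer {z} ≤ normalizer (zpowers a : Set G) := by
      intro g hg
      have h3 : e g ∈ centralizer {e z} := by rw [hz]; exact ⟨g, hg, rfl⟩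
      have h4 := hn h3
      rw [mem_normalizer_iff] at h4 ⊢
      intro x
      have h5 := h4 (e x)
      have key : ∀ y, y ∈ zpowers a ↔ e y ∈ zpowers (e.toMonoidHom a) := by
        intro y
        rw [← MonoidHom.map_zpowers]
        constructor
        · intro hy
          exact ⟨y, hy, rfl⟩
        · rintro ⟨y', hy', hy2⟩
          rwa [← e.injective hy2]
      rw [key x, key (g * x * g⁻¹), map_mul, map_mul, map_inv]
      exact h5
    have h3 := h.ee a ha h1 h2
    rw [← MonoidHom.map_zpowers, h3, MonoidHom.map_zpowers]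
    rfl

theorem exists_T7_congr {G H : Type*} [Group G] [Group H] {P : Subgroup G} {Q : Subgroup H}
    (e : Nonempty (↥P ≃* ↥Q)) (h : ∃ (X A : Subgroup ↥P) (z : ↥P), IsT7 X A z) :
    ∃ (X A : Subgroup ↥Q) (z : ↥Q), IsT7 X A z := by
  obtain ⟨e⟩ := e
  obtain ⟨X, A, z, h⟩ := h
  exact ⟨_, _, _, h.map e⟩

theorem centralizer_singleton_subgroupOf {P : Subgroup G} {z : G} (hz : z ∈ P) :
    centralizer {(⟨z, hz⟩ : ↥P)} = (centralizer {z}).subgroupOf P := by
  ext x
  rw [mem_centralizer_singleton_iff, mem_subgroupOf, mem_centralizer_singleton_iff]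
  constructor
  · intro h
    exact congrArg Subtype.val h
  · intro h
    exact Subtype.ext h

theorem card_subgroupOf_inf (X P : Subgroup G) : Nat.card ↥(X.subgroupOf P) = Nat.card ↥(X ⊓ P : Subgroup G) := by
  rw [← Subgroup.inf_subgroupOf_right]
  exact Nat.card_congr (Subgroup.subgroupOfEquivOfLe inf_le_right).toEquiv

theorem isT7_of {P X A : Subgroup G} {z : G} (hX : X ≤ P) (hA : A ≤ P) (hzX : z ∈ X)
    (h1 : ⁅X, X⁆ = X) (h2 : IsSimpleGroup (↥X ⧸ center ↥X)) (h3 : Nat.card ↥X = 3 * oU6)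
    (h4 : Nat.card ↥(center ↥X) = 3) (h5 : orderOf z = 3) (h6 : X ≤ centralizer {z})
    (h7 : Nat.card ↥(centralizer (X : Set G) ⊓ P : Subgroup G) ∣ 2 ^ 3 * 3 ^ 4)
    (h8 : 3 ^ 10 ∣ Nat.card ↥(centralizer {z} ⊓ P : Subgroup G))
    (h9 : ¬ 19 ∣ Nat.card ↥(centralizer {z} ⊓ P : Subgroup G))
    (h10 : A ≤ centralizer {z}) (h11 : IsPGroup 3 ↥A) (h12 : centralizer (A : Set G) = A)
    (h13 : ∀ e ∈ A, e ≠ 1 → centralizer {z} ⊓ P ≤ normalizer (zpowers e : Set G) → zpowers e = zpowers z) :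
    IsT7 (X.subgroupOf P) (A.subgroupOf P) ⟨z, hX hzX⟩ := by
  have hz := centralizer_singleton_subgroupOf (hX hzX)
  refine ⟨perfect_subgroupOf hX h1, quasi_subgroupOf hX h2, by rw [Asm.card_subgroupOf hX, h3],
    by rw [card_center_subgroupOf hX, h4], hzX, ?_, ?_, ?_, ?_, ?_, ?_, ?_, ?_, ?_⟩
  · rw [← h5]
    exact (orderOf_injective P.subtype P.subtype_injective ⟨z, hX hzX⟩).symm
  · rw [hz]; exact fun x hx => h6 hx
  · rw [centralizer_subgroupOf hX, card_subgroupOf_inf]; exact h7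
  · rw [hz, card_subgroupOf_inf]; exact h8
  · rw [hz, card_subgroupOf_inf]; exact h9
  · rw [hz]; exact fun x hx => h10 hx
  · exact h11.of_equiv (Subgroup.subgroupOfEquivOfLe hA).symm
  · rw [centralizer_subgroupOf hA, h12]
  · rintro ⟨e, he⟩ heA he1 hn
    have h14 : e ≠ 1 := fun h => he1 (Subtype.ext h)
    have hzp : ∀ (x : ↥P) (y : ↥P), y ∈ zpowers x ↔ (y : G) ∈ zpowers (x : G) := by
      intro x y
      constructor
      · rintro ⟨n, hn⟩
        exact ⟨n, congrArg Subtype.val hn⟩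
      · rintro ⟨n, hn⟩
        exact ⟨n, Subtype.ext hn⟩
    have h15 : centralizer {z} ⊓ P ≤ normalizer (zpowers e : Set G) := by
      rintro g ⟨hg, hgP⟩
      have hg' : (⟨g, hgP⟩ : ↥P) ∈ centralizer {(⟨z, hX hzX⟩ : ↥P)} := by
        rw [hz]
        exact hg
      have h16 := hn hg'
      rw [mem_normalizer_iff] at h16 ⊢
      intro x
      constructor
      · intro hx
        have hxP : x ∈ P := (zpowers_le.2 he) hx
        have h17 := (h16 ⟨x, hxP⟩).1 ((hzp _ _).2 hx)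
        exact (hzp _ _).1 h17
      · intro hx
        have hxP : g * x * g⁻¹ ∈ P := (zpowers_le.2 he) hx
        have hxP' : x ∈ P := by
          have := P.mul_mem (P.mul_mem (P.inv_mem hgP) hxP) hgP
          have e : g⁻¹ * (g * x * g⁻¹) * g = x := by group
          rwa [e] at this
        have h17 := (h16 ⟨x, hxP'⟩).2 ((hzp _ _).2 hx)
        exact (hzp _ _).1 h17
    have h16 := h13 e heA h14 h15
    ext y
    rw [hzp, hzp]
    show (y : G) ∈ zpowers e ↔ (y : G) ∈ zpowers z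
    rw [h16]

end Gen

section K

variable {K : Type} [Field K] [Fintype K] [CharP K 2]

theorem cov_SU (hK : Fintype.card K = 4) : Cfsg.Agent.R2.E72T.Cov oU6 ↥(Cfsg.SU 6 K 2) where
  perf := Cfsg.Agent.LieClassical.HermPerfect.commutator_SU_eq_top (q := 2) (by rw [hK]; norm_num) (by norm_num)
    (by omega)
  simp := Cfsg.Agent.S0283.result (q := 2) (by rw [hK]; norm_num) 6 (by norm_num) (by norm_num)
  card := by
    rw [Cfsg.Agent.H372.FxU.card_six (q := 2) (by rw [hK]; norm_num)]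
    decide +kernel
  cent := by
    rw [Cfsg.Agent.S0279.result (q := 2) (by rw [hK]; norm_num) 6 (by norm_num)]
    decide

theorem isT7_P4 (hK : Fintype.card K = 4) : ∃ (X A : Subgroup ↥(P4 K)) (z : ↥(P4 K)), IsT7 X A z := by
  obtain ⟨ζ, hζ⟩ := exists_zeta hK
  have h0 : ζ ≠ 0 := hζ.ne_zero (by norm_num)
  have hcov : Cfsg.Agent.R2.E72T.Cov oU6 ↥(X6 K) :=
    (cov_SU hK).congr ((Cfsg.SU 6 K 2).equivMapOfInjective (f6 K) (f6_injective hζ hK))
  obtain ⟨c1, c2, c3, c4⟩ := hcov.sub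
  have hzX : f6 K (z6 ζ) ∈ X6 K := by
    rw [mem_X6 hζ hK]
    exact T_le hK (z6_mem h0)
  refine ⟨_, _, _, isT7_of (P := P4 K) (X := X6 K) (A := T K) (z := f6 K (z6 ζ)) X6_le (T_le hK) hzX c1 c2 c3 c4
    (z6_order hζ) ?_ (card_cent hζ hK) (three_ten hK hζ) (not19 hζ hK) ?_ (isPGroup_T hK) (cent_T hK)
    (fun e he he1 hn => eq_zz hK hζ he he1 hn)⟩
  · rintro _ ⟨g, -, rfl⟩
    rw [mem_centralizer_singleton_iff]
    exact z6_comm6 hζ g
  · exact (T_le_CZ hK hζ).trans inf_le_left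

end K

theorem exists_isT7 : ∃ (X A : Subgroup G7) (z : G7), IsT7 X A z := by
  obtain ⟨K, _, _, hK⟩ := Cfsg.Agent.R2.E72T.exists_field 2 (by norm_num)
  have hc : CharP K 2 := Cfsg.Agent.R2.E72T.charTwo_of_card hK
  have hK4 : Fintype.card K = 4 := by rw [hK]; norm_num
  exact exists_T7_congr (Q := chevE7.group (ZMod 2)) (isoP4 hK4) (isT7_P4 hK4)

/-- **Box T7** -/
theorem box_T7 : BoxT7 := by
  obtain ⟨X, A, z, h⟩ := exists_isT7
  exact ⟨X, A, z, h.perf, h.simp, h.card, h.cent, h.mem, h.ord, h.le, h.cX, h.ten, h.n19, h.leA, h.pgA, h.cA, h.ee⟩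

end Cfsg.Agent.R2.H27.UsH
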