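import Cfsg.Agent.R2.H27.Np

/-!
# S5934, assembly: the classes 1 - 6 (helper27)
-/

set_option autoImplicit false

namespace Cfsg.Agent.R2.H27.Asm

open Subgroup
open scoped commutatorElement Pointwise

/-- lower bounds -/
def lo : Fin 12 → ℕ := ![2 * oE6, 3 * oTE6, 6 * oO12, oL8, oU8, oL6 * oL3, 2 ^ 15 * 3 ^ 10 * 5 * 7 * 11,
  2 ^ 12 * 3 ^ 9 * 5 ^ 2 * 7, oTD4 * oL2e, oL128, 3 ^ 7 * oS6, oS6 * oG2]

/-- upper bounds -/
def up : Fin 12 → ℕ := ![2 * oE6, 54 * oTE6, 12 * oO12, 2 * oL8, 2 * oU8, 4 * oL6 * oL3, N7,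
  N7, 2 ^ 63 * 3 ^ 11 * 7 ^ 3 * 11 * 13 * 17 * 19 * 31 * 43 * 73, 7 * oL128, N7, N7]

/-- a class -/
structure Cls (i : Fin 12) (M : Subgroup G7) : Prop where
  np : NP M
  lo : lo i ∣ Nat.card ↥M
  up : Nat.card ↥M ∣ up i

theorem card_ne_one_of {K : Subgroup G7} {n : ℕ} (hn : Nat.card ↥K = n) (h1 : n ≠ 1) : K ≠ ⊥ := by
  rintro rfl
  rw [Subgroup.card_bot] at hn
  exact h1 hn.symm

theorem exists_max' {K : Subgroup G7} {n : ℕ} (hn : Nat.card ↥K = n) (h1 : n ≠ 1) (h2 : n ≠ N7) :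
    ∃ M : Subgroup G7, IsCoatom M ∧ normalizer (K : Set G7) ≤ M := by
  refine exists_max (card_ne_one_of hn h1) ?_
  rintro rfl
  rw [Subgroup.card_top, card_G7] at hn
  exact h2 hn.symm

theorem np_of (hP : BoxP6) {M : Subgroup G7} (hM : IsCoatom M) {lo : ℕ} (hlo : lo ∣ Nat.card ↥M)
    (h : ∀ j : Fin 7, lo ∣ 2 ^ 63 * mm7 j → ¬ Sim (Par.P7 j) M) : NP M := by
  refine ⟨hM, fun j => ?_⟩
  by_cases hj : lo ∣ 2 ^ 63 * mm7 j
  · exact h j hj
  · exact notSim hP hlo hj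

theorem simple_E6 : IsSimpleGroup ↥(Cfsg.Lie.chevE6.group (ZMod 2)) :=
  (Cfsg.Agent.S1054.result (F := ZMod 2) Cfsg.Lie.chevE6 (by simp)).1

theorem centralizer_singleton_of {G : Type*} [Group G] {X H : Subgroup G} (h : H ≤ centralizer (X : Set G)) {x : G}
    (hx : x ∈ X) : H ≤ centralizer {x} :=
  h.trans (Subgroup.centralizer_le (Set.singleton_subset_iff.2 hx))

theorem bot_of_card_dvd {G : Type*} [Group G] [Finite G] {H : Subgroup G} (h2 : IsPGroup 2 ↥H) {q : ℕ} (hq : Odd q)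
    (hd : Nat.card ↥H ∣ q) : H = ⊥ := by
  have : Fact (Nat.Prime 2) := ⟨Nat.prime_two⟩
  obtain ⟨k, hk⟩ := (IsPGroup.iff_card (p := 2)).1 h2
  rw [hk] at hd
  have h5 : Nat.Coprime (2 ^ k) q := Nat.Coprime.pow_left _ (Nat.coprime_two_left.2 hq)
  have h6 := Nat.Coprime.eq_one_of_dvd h5 hd
  rw [h6] at hk
  exact Subgroup.eq_bot_of_card_eq _ hk

theorem inf_centralizer_bot' {G : Type*} [Group G] {X : Subgroup G} [Finite ↥X] (hX : IsSimpleGroup ↥X) {a b : ℕ}
    (ha : a.Prime) (hb : b.Prime) (hab : a ≠ b) (h1 : a ∣ Nat.card ↥X) (h2 : b ∣ Nat.card ↥X) :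
    X ⊓ centralizer (X : Set G) = ⊥ :=
  inf_centralizer_bot hX (not_comm_of_card hX ha hb hab h1 h2)

theorem simple_card_of_equiv {G H : Type*} [Group G] [Group H] {X : Subgroup G} {Y : Subgroup H}
    (e : Nonempty (↥X ≃* ↥Y)) {n : ℕ} (hs : IsSimpleGroup ↥Y) (hn : Nat.card ↥Y = n) :
    IsSimpleGroup ↥X ∧ Nat.card ↥X = n := by
  obtain ⟨e⟩ := e
  exact ⟨simple_congr e.symm hs, (Nat.card_congr e.toEquiv).trans hn⟩

/-! ### class 1 -/

theorem cls1_aux {M E : Type*} [Group M] [Finite M] [Group E] {X H : Subgroup M} (hX : IsSimpleGroup ↥X) {q : ℕ}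
    (hq : q.Prime) (hq2 : q ≠ 2) (hqX : q ∣ Nat.card ↥X) (hn : H ≤ normalizer (X : Set M))
    (hc : ∀ z : M, orderOf z = q → Nat.card (centralizer {z} : Subgroup M) ∣ q) (h : HasHom M E) :
    Nat.card ↥H ∣ Nat.card E := by
  obtain ⟨f, hf⟩ := h
  apply card_of_inf_ker (f := f)
  have h1 : H ⊓ f.ker ≤ centralizer (X : Set M) := by
    have := inf_ker_le (H := H ⊔ X) hf hX le_sup_right (sup_le hn Subgroup.le_normalizer) hq hq2 hqX
    exact (inf_le_inf_right _ le_sup_left).trans this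
  obtain ⟨z, hz⟩ := exists_orderOf hq hqX
  have h2 : H ⊓ f.ker ≤ centralizer {(z : M)} := centralizer_singleton_of h1 z.2
  have h3 := hc z (by rw [Subgroup.orderOf_coe]; exact hz)
  exact bot_of_card_dvd (hf.to_le inf_le_right) (hq.odd_of_ne_two hq2) ((dvd_card_of_le h2).trans h3)

theorem cls1 (h0 : BoxX0) (hP : BoxP6) (hS : BoxS1) (hF : BoxF1) : ∃ M : Subgroup G7, Cls 0 M := by
  obtain ⟨X, H, e, hXH, hHn, hH⟩ := hS
  obtain ⟨hX, hXc⟩ := simple_card_of_equiv e simple_E6 card_E6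
  obtain ⟨M, hM, hle⟩ := exists_max' hXc (by decide +kernel) (by decide +kernel)
  have hHM : H ≤ M := hHn.trans hle
  have hXM : X ≤ M := hXH.trans hHM
  have hHc : Nat.card ↥H = 2 * oE6 := by rw [hH, hXc]
  have hlo : 2 * oE6 ∣ Nat.card ↥M := hHc ▸ dvd_card_of_le hHM
  have hnp : NP M := by
    refine np_of hP hM hlo ?_
    have key : ∀ j : Fin 7, 2 * oE6 ∣ 2 ^ 63 * mm7 j → j = 6 := by decide +kernel
    intro j hj hs
    obtain rfl := key j hj
    have h1 : HasHom ↥M ↥(Cfsg.Lie.chevE6.group (ZMod 2)) := hom_of_sim hs hP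
    have h2 := cls1_aux (X := X.subgroupOf M) (H := H.subgroupOf M) (q := 73) (simple_subgroupOf hXM hX) (by norm_num)
      (by norm_num) (by rw [card_subgroupOf hXM, hXc]; decide +kernel)
      (by
        intro x hx
        rw [Subgroup.mem_normalizer_iff]
        intro y
        exact (Subgroup.mem_normalizer_iff.1 (hHn hx)) y) (h0 M).c73 h1
    rw [card_subgroupOf hHM, hHc, card_E6] at h2
    revert h2
    decide +kernel
  have h1 := hF ↥M (hnp.ctx h0) (X.subgroupOf M) (simple_subgroupOf hXM hX) (by rw [card_subgroupOf hXM, hXc])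
  exact ⟨M, hnp, hlo, h1.2⟩

/-! ### class 2 -/

/-- `O₃(M) ≠ 1` if there is a normal subgroup `K` whose `O₃` is not trivial -/
theorem pCore_ne_bot {M : Type*} [Group M] {p : ℕ} {K : Subgroup M} (hn : K.Normal) (hK : IsPGroup p ↥K)
    (h : K ≠ ⊥) : Cfsg.pCore p M ≠ ⊥ := by
  intro h1
  apply h
  rw [eq_bot_iff, ← h1]
  exact Cfsg.Agent.Lib.Cores.le_pCore hn hK

theorem center_map_normal {M : Type*} [Group M] {X : Subgroup M} (hn : X.Normal) :
    ((center ↥X).map X.subtype).Normal := inferInstance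

/-- the extra data of class 2 -/
def Ex2 (M : Subgroup G7) : Prop := ∃ X : Subgroup G7, X ≤ M ∧ M ≤ normalizer (X : Set G7) ∧
  Nat.card ↥X = 3 * oTE6 ∧ Nat.card ↥(center ↥X) = 3

theorem le_normalizer_of_normal {G : Type*} [Group G] {X M : Subgroup G} (hXM : X ≤ M) (h : (X.subgroupOf M).Normal) :
    M ≤ normalizer (X : Set G) := by
  exact (Subgroup.normal_subgroupOf_iff_le_normalizer hXM).1 h

theorem cls2 (h0 : BoxX0) (hP : BoxP6) (hT : BoxT2) (hF : BoxF2) :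
    ∃ M : Subgroup G7, Cls 1 M ∧ (pc M ≠ 1 ∧ pc M ∣ 9) ∧ Ex2 M := by
  obtain ⟨X, hXp, hXq, hXc, hXz⟩ := hT
  obtain ⟨M, hM, hle⟩ := exists_max' hXc (by decide +kernel) (by decide +kernel)
  have hXM : X ≤ M := Subgroup.le_normalizer.trans hle
  have hlo : 3 * oTE6 ∣ Nat.card ↥M := hXc ▸ dvd_card_of_le hXM
  have hnp : NP M := by
    refine np_of hP hM hlo ?_
    have key : ∀ j : Fin 7, ¬ 3 * oTE6 ∣ 2 ^ 63 * mm7 j := by decide +kernel
    intro j hj
    exact absurd hj (key j)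
  have h1 := hF ↥M (hnp.ctx h0) (X.subgroupOf M) (perfect_subgroupOf hXM hXp) (quasi_subgroupOf hXM hXq)
    (by rw [card_subgroupOf hXM, hXc]) (by rw [card_center_subgroupOf hXM, hXz])
  refine ⟨M, ⟨hnp, hlo, h1.2.1⟩, ⟨?_, h1.2.2⟩, X, hXM, le_normalizer_of_normal hXM h1.1, hXc, hXz⟩
  intro h2
  have h3 : Cfsg.pCore 3 ↥M = ⊥ := Subgroup.eq_bot_of_card_eq _ h2
  have h4 := h1.1
  have h5 : Nat.card ↥((center ↥(X.subgroupOf M)).map (X.subgroupOf M).subtype) = 3 := by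
    rw [← card_center_subgroupOf hXM] at hXz
    rw [← hXz]
    exact (Nat.card_congr ((center ↥(X.subgroupOf M)).equivMapOfInjective _
      (X.subgroupOf M).subtype_injective).toEquiv).symm
  refine pCore_ne_bot (p := 3) (K := (center ↥(X.subgroupOf M)).map (X.subgroupOf M).subtype)
    (center_map_normal h4) ?_ ?_ h3
  · exact IsPGroup.of_card (n := 1) (by rw [h5, pow_one])
  · intro h6
    rw [h6, Subgroup.card_bot] at h5
    revert h5; decide

/-! ### class 3 -/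

/-- a group of order `6` -/
theorem pCore_of_six {C : Type*} [Group C] (h : Nat.card C = 6) : 3 ∣ Nat.card ↥(Cfsg.pCore 3 C) := by
  have : Finite C := Nat.finite_of_card_ne_zero (by rw [h]; norm_num)
  obtain ⟨x, hx⟩ := exists_orderOf (X := C) (q := 3) (by norm_num) (by rw [h]; norm_num)
  have h1 : Nat.card ↥(zpowers x) = 3 := by rw [Nat.card_zpowers, hx]
  have h2 : (zpowers x).index = 2 := by
    have := (zpowers x).card_mul_index
    rw [h1, h] at this
    omega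
  have h3 : (zpowers x).Normal := Subgroup.normal_of_index_eq_two h2
  have h4 : zpowers x ≤ Cfsg.pCore 3 C :=
    Cfsg.Agent.Lib.Cores.le_pCore h3 (IsPGroup.of_card (n := 1) (by rw [h1, pow_one]))
  have h5 := dvd_card_of_le h4
  rwa [h1] at h5

theorem pCore_normal_six {M : Type*} [Group M] [Finite M] {C : Subgroup M} (hn : C.Normal) (h : Nat.card ↥C = 6)
    (hle : Cfsg.pCore 3 M ≤ C) : Nat.card ↥(Cfsg.pCore 3 M) = 3 := by
  have h1 : (Cfsg.pCore 3 ↥C).map C.subtype ≤ Cfsg.pCore 3 M := by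
    have : (Cfsg.pCore 3 ↥C).Characteristic := Cfsg.Agent.Lib.Cores.pCore_characteristic 3
    exact Cfsg.Agent.Lib.Cores.le_pCore inferInstance ((Cfsg.Agent.Lib.Cores.pCore_isPGroup 3).map _)
  have h2 : Nat.card ↥((Cfsg.pCore 3 ↥C).map C.subtype) = Nat.card ↥(Cfsg.pCore 3 ↥C) :=
    (Nat.card_congr ((Cfsg.pCore 3 ↥C).equivMapOfInjective _ C.subtype_injective).toEquiv).symm
  have h3 : 3 ∣ Nat.card ↥(Cfsg.pCore 3 M) := by
    have := dvd_card_of_le h1
    rw [h2] at this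
    exact (pCore_of_six h).trans this
  have h4 : Nat.card ↥(Cfsg.pCore 3 M) ∣ 6 := h ▸ dvd_card_of_le hle
  have h5 : Fact (Nat.Prime 3) := ⟨Nat.prime_three⟩
  obtain ⟨k, hk⟩ := (IsPGroup.iff_card (p := 3)).1 (Cfsg.Agent.Lib.Cores.pCore_isPGroup (G := M) 3)
  rw [hk] at h3 h4 ⊢
  match k, h3, h4 with
  | 0, h3, _ => revert h3; decide
  | 1, _, _ => rfl
  | k + 2, _, h4 =>
    exfalso
    have h6 : (3 : ℕ) ^ 2 ∣ 6 := (pow_dvd_pow 3 (by omega)).trans h4
    revert h6; decide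

theorem cls3 (h0 : BoxX0) (hP : BoxP6) (hS : BoxS3) (hF : BoxF3) :
    ∃ M : Subgroup G7, Cls 2 M ∧ pc M = 3 := by
  obtain ⟨X, hX, hXc, hC⟩ := hS
  obtain ⟨M, hM, hle⟩ := exists_max' hXc (by decide +kernel) (by decide +kernel)
  have hXM : X ≤ M := Subgroup.le_normalizer.trans hle
  have hCM : centralizer (X : Set G7) ≤ M := (Subgroup.centralizer_le_normalizer _).trans hle
  have hd : X ⊓ centralizer (X : Set G7) = ⊥ := inf_centralizer_bot' hX
    (a := 3) (b := 5) (by norm_num) (by norm_num) (by norm_num)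
      (by rw [hXc]; decide +kernel) (by rw [hXc]; decide +kernel)
  have hlo : 6 * oO12 ∣ Nat.card ↥M := by
    have := dvd_card_of_le (sup_le hXM hCM)
    rw [card_sup_comm le_rfl hd, hXc, hC, mul_comm] at this
    exact this
  have hnp : NP M := by
    refine np_of hP hM hlo ?_
    have key : ∀ j : Fin 7, ¬ 6 * oO12 ∣ 2 ^ 63 * mm7 j := by decide +kernel
    intro j hj
    exact absurd hj (key j)
  have h1 := hF ↥M (hnp.ctx h0) (X.subgroupOf M) (simple_subgroupOf hXM hX) (by rw [card_subgroupOf hXM, hXc])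
  have h2 : Nat.card (centralizer ((X.subgroupOf M : Subgroup ↥M) : Set ↥M) : Subgroup ↥M) = 6 := by
    rw [centralizer_subgroupOf hXM, card_subgroupOf hCM, hC]
  have h3 := h1.1
  have h4 : (centralizer ((X.subgroupOf M : Subgroup ↥M) : Set ↥M)).Normal := inferInstance
  have : Fact (Nat.Prime 3) := ⟨Nat.prime_three⟩
  have h5 : Cfsg.pCore 3 ↥M ≤ centralizer ((X.subgroupOf M : Subgroup ↥M) : Set ↥M) :=
    pCore_le_centralizer (simple_subgroupOf hXM hX) h3 (q := 5) (by norm_num) (by norm_num)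
      (by rw [card_subgroupOf hXM, hXc]; decide +kernel)
  refine ⟨M, ⟨hnp, hlo, ?_⟩, pCore_normal_six h4 h2 h5⟩
  refine h1.2.trans ?_
  rw [h2]
  decide +kernel

/-! ### class 4 -/

theorem cls4 (h0 : BoxX0) (hP : BoxP6) (hS : BoxS4) (hF : BoxF4) : ∃ M : Subgroup G7, Cls 3 M := by
  obtain ⟨X, hX, hXc⟩ := hS
  obtain ⟨M, hM, hle⟩ := exists_max' hXc (by decide +kernel) (by decide +kernel)
  have hXM : X ≤ M := Subgroup.le_normalizer.trans hle
  have hlo : oL8 ∣ Nat.card ↥M := hXc ▸ dvd_card_of_le hXM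
  have hnp : NP M := by
    refine np_of hP hM hlo ?_
    have key : ∀ j : Fin 7, ¬ oL8 ∣ 2 ^ 63 * mm7 j := by decide +kernel
    intro j hj
    exact absurd hj (key j)
  exact ⟨M, hnp, hlo, (hF ↥M (hnp.ctx h0) (X.subgroupOf M) (simple_subgroupOf hXM hX)
    (by rw [card_subgroupOf hXM, hXc])).2⟩

/-! ### class 5 -/

theorem cls5 (h0 : BoxX0) (hP : BoxP6) (hT : BoxT5) (hF : BoxF5) : ∃ M : Subgroup G7, Cls 4 M ∧ pc M = 1 := by
  obtain ⟨X, hX, hXc⟩ := hT
  obtain ⟨M, hM, hle⟩ := exists_max' hXc (by decide +kernel) (by decide +kernel)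
  have hXM : X ≤ M := Subgroup.le_normalizer.trans hle
  have hlo : oU8 ∣ Nat.card ↥M := hXc ▸ dvd_card_of_le hXM
  have hnp : NP M := by
    refine np_of hP hM hlo ?_
    have key : ∀ j : Fin 7, ¬ oU8 ∣ 2 ^ 63 * mm7 j := by decide +kernel
    intro j hj
    exact absurd hj (key j)
  have h1 := hF ↥M (hnp.ctx h0) (X.subgroupOf M) (simple_subgroupOf hXM hX) (by rw [card_subgroupOf hXM, hXc])
  refine ⟨M, ⟨hnp, hlo, h1.2.2⟩, ?_⟩
  have h3 := h1.1
  have : Fact (Nat.Prime 3) := ⟨Nat.prime_three⟩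
  have h5 : Cfsg.pCore 3 ↥M ≤ centralizer ((X.subgroupOf M : Subgroup ↥M) : Set ↥M) :=
    pCore_le_centralizer (simple_subgroupOf hXM hX) h3 (q := 5) (by norm_num) (by norm_num)
      (by rw [card_subgroupOf hXM, hXc]; decide +kernel)
  rw [h1.2.1, le_bot_iff] at h5
  unfold pc
  rw [h5, Subgroup.card_bot]

/-! ### class 6 -/

theorem cls6 (h0 : BoxX0) (hP : BoxP6) (hX2 : BoxX2) (hS : BoxS6) (hF : BoxF6) : ∃ M : Subgroup G7, Cls 5 M := by
  obtain ⟨X, Y, hX, hXc, hY, hYc, hCX, hCY⟩ := hS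
  obtain ⟨M, hM, hle⟩ := exists_max' hXc (by decide +kernel) (by decide +kernel)
  have hXM : X ≤ M := Subgroup.le_normalizer.trans hle
  have hCM : centralizer (X : Set G7) ≤ M := (Subgroup.centralizer_le_normalizer _).trans hle
  have hYM : Y ≤ M := hCX ▸ hCM
  have hd : X ⊓ centralizer (X : Set G7) = ⊥ := inf_centralizer_bot' hX
    (a := 3) (b := 5) (by norm_num) (by norm_num) (by norm_num)
      (by rw [hXc]; decide +kernel) (by rw [hXc]; decide +kernel)
  have hlo : oL6 * oL3 ∣ Nat.card ↥M := by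
    have := dvd_card_of_le (sup_le hXM hCM)
    rw [card_sup_comm le_rfl hd, hXc, hCX, hYc] at this
    exact this
  have hnp : NP M := by
    refine np_of hP hM hlo ?_
    have key : ∀ j : Fin 7, oL6 * oL3 ∣ 2 ^ 63 * mm7 j → j = 6 := by decide +kernel
    intro j hj
    obtain rfl := key j hj
    obtain ⟨z, hz, hzo⟩ := exists_orderOf_mul (X := X) (Y := Y) (m := 31) (n := 7) hCX.ge (by norm_num)
      (exists_orderOf (by norm_num) (by rw [hXc]; decide +kernel))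
      (exists_orderOf (by norm_num) (by rw [hYc]; decide +kernel))
    exact notSim6 hP hX2 (sup_le hXM hYM hz) (Or.inr (by rw [hzo]))
  exact ⟨M, hnp, hlo, hF ↥M (hnp.ctx h0) (X.subgroupOf M) (Y.subgroupOf M) (simple_subgroupOf hXM hX)
    (by rw [card_subgroupOf hXM, hXc]) (simple_subgroupOf hYM hY)
    (by rw [card_subgroupOf hYM, hYc]) (by rw [centralizer_subgroupOf hXM, hCX])
    (by rw [centralizer_subgroupOf hYM, hCY])⟩

end Cfsg.Agent.R2.H27.Asm
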