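import Cfsg.Agent.R2.H27.Util
import Cfsg.Agent.R2.H27.Box

/-!
# S5934, assembly: non-parabolic maximal subgroups (helper27)
-/

set_option autoImplicit false

namespace Cfsg.Agent.R2.H27.Asm

open Subgroup
open scoped commutatorElement Pointwise

section Gen

variable {G : Type*} [Group G]

theorem hom_of_quot {P : Type*} [Group P] {V : Subgroup P} (hn : V.Normal) (hV : IsPGroup 2 ↥V)
    {E : Type*} [Group E] (e : (P ⧸ V) ≃* E) : HasHom P E := by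
  refine ⟨e.toMonoidHom.comp (QuotientGroup.mk' V), ?_⟩
  have h1 : (e.toMonoidHom.comp (QuotientGroup.mk' V)).ker = V := by
    ext x
    rw [MonoidHom.mem_ker, MonoidHom.comp_apply]
    constructor
    · intro h
      have h2 : (QuotientGroup.mk' V) x = 1 := e.injective (h.trans (map_one e).symm)
      rw [← QuotientGroup.ker_mk' V, MonoidHom.mem_ker]
      exact h2
    · intro h
      have h2 : (QuotientGroup.mk' V) x = 1 := by
        rw [← MonoidHom.mem_ker, QuotientGroup.ker_mk' V]; exact h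
      rw [h2, map_one]
  rw [h1]
  exact hV

theorem HasHom.congr {P M E : Type*} [Group P] [Group M] [Group E] (h : HasHom P E) (d : M ≃* P) :
    HasHom M E := by
  obtain ⟨f, hf⟩ := h
  refine ⟨f.comp d.toMonoidHom, ?_⟩
  rintro ⟨x, hx⟩
  rw [MonoidHom.mem_ker] at hx
  have h2 : d x ∈ f.ker := by
    rw [MonoidHom.mem_ker]
    exact hx
  obtain ⟨k, hk⟩ := hf ⟨d x, h2⟩
  refine ⟨k, ?_⟩
  apply Subtype.ext
  apply d.injective
  have h3 : (d x) ^ 2 ^ k = 1 := congrArg Subtype.val hk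
  show d (x ^ 2 ^ k) = d 1
  rw [map_pow, h3, map_one]

theorem hom_of_sim {P M : Subgroup G} (h : Sim P M) {E : Type*} [Group E] (e : HasHom ↥P E) : HasHom ↥M E := by
  obtain ⟨d⟩ := h.symm.equiv
  exact e.congr d

theorem HasHom.card_dvd {P E : Type*} [Group P] [Finite P] [Group E] (h : HasHom P E) {n : ℕ}
    (hn : Nat.card E ∣ n) : ∃ k, Nat.card P ∣ 2 ^ k * n := by
  obtain ⟨f, hf⟩ := h
  have h2 : Nat.card ↥f.ker * Nat.card ↥f.range = Nat.card P := by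
    rw [← Subgroup.index_ker f]
    exact f.ker.card_mul_index
  haveI := Fact.mk Nat.prime_two
  obtain ⟨k, hk⟩ := (IsPGroup.iff_card (p := 2)).1 hf
  refine ⟨k, ?_⟩
  rw [← h2, hk]
  exact Nat.mul_dvd_mul (dvd_refl _) ((Subgroup.card_subgroup_dvd_card _).trans hn)

theorem HasHom.orderOf_mem {G E : Type*} [Group G] [Group E] {M : Subgroup G} (h : HasHom ↥M E) {z : G} (hz : z ∈ M)
    (ho : Odd (orderOf z)) : ∃ x : E, orderOf x = orderOf z := by
  obtain ⟨f, hf⟩ := h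
  refine ⟨f ⟨z, hz⟩, ?_⟩
  apply Nat.dvd_antisymm
  · have h1 := orderOf_map_dvd f ⟨z, hz⟩
    rwa [Subgroup.orderOf_mk] at h1
  · rw [orderOf_dvd_iff_pow_eq_one]
    have h1 : (⟨z, hz⟩ : ↥M) ^ orderOf (f ⟨z, hz⟩) ∈ f.ker := by
      rw [MonoidHom.mem_ker, map_pow, pow_orderOf_eq_one]
    obtain ⟨k, hk⟩ := hf ⟨_, h1⟩
    have h2 : (z ^ orderOf (f ⟨z, hz⟩)) ^ 2 ^ k = 1 := congrArg (fun x => ((x : ↥f.ker) : ↥M).1) hk
    have h3 : orderOf (z ^ orderOf (f ⟨z, hz⟩)) ∣ 2 ^ k := orderOf_dvd_of_pow_eq_one h2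
    have h4 : orderOf (z ^ orderOf (f ⟨z, hz⟩)) ∣ orderOf z := orderOf_pow_dvd _
    have h5 : Nat.Coprime (2 ^ k) (orderOf z) := Nat.Coprime.pow_left _ (Nat.coprime_two_left.2 ho)
    have h6 := Nat.Coprime.eq_one_of_dvd (Nat.Coprime.coprime_dvd_right h4 h5).symm h3
    exact orderOf_eq_one_iff.1 h6

theorem card_of_inf_ker {M E : Type*} [Group M] [Group E] {f : M →* E} {H : Subgroup M}
    (h : H ⊓ f.ker = ⊥) : Nat.card ↥H ∣ Nat.card E := by
  refine Subgroup.card_dvd_of_injective (f.comp H.subtype) ?_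
  rw [← MonoidHom.ker_eq_bot_iff, eq_bot_iff]
  rintro ⟨x, hx⟩ h1
  have h2 : x ∈ H ⊓ f.ker := ⟨hx, h1⟩
  rw [h, mem_bot] at h2
  exact Subtype.ext h2

/-- a simple subgroup normalised by `H`, and a normal `2`-subgroup of `H` -/
theorem inf_ker_le {M E : Type*} [Group M] [Finite M] [Group E] {f : M →* E} (hf : IsPGroup 2 ↥f.ker)
    {X H : Subgroup M} (hX : IsSimpleGroup ↥X) (hXH : X ≤ H) (hn : H ≤ normalizer (X : Set M)) {q : ℕ}
    (hq : q.Prime) (hq2 : q ≠ 2) (hqX : q ∣ Nat.card ↥X) : H ⊓ f.ker ≤ centralizer (X : Set M) := by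
  have h2 : f.ker ⊓ X = ⊥ := by
    have h3 : (f.ker.subgroupOf X).Normal := inferInstance
    rcases h3.eq_bot_or_eq_top with h | h
    · rw [Subgroup.subgroupOf_eq_bot] at h
      exact h.eq_bot
    · exfalso
      rw [Subgroup.subgroupOf_eq_top] at h
      have h4 : IsPGroup 2 ↥X := hf.to_le h
      haveI := Fact.mk Nat.prime_two
      obtain ⟨n, hn'⟩ := (IsPGroup.iff_card (p := 2)).1 h4
      rw [hn'] at hqX
      exact hq2 ((Nat.prime_dvd_prime_iff_eq hq Nat.prime_two).1 (hq.dvd_of_dvd_pow hqX))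
  rintro x ⟨hx, hk⟩
  rw [mem_centralizer_iff]
  intro y hy
  have h5 : ⁅x, y⁆ ∈ f.ker ⊓ X := by
    refine ⟨?_, ?_⟩
    · have hk' : f x = 1 := hk
      show f ⁅x, y⁆ = 1
      rw [map_commutatorElement, hk']
      simp
    · rw [commutatorElement_def]
      exact X.mul_mem (((Subgroup.mem_normalizer_iff.1 (hn hx)) y).1 hy) (X.inv_mem hy)
  rw [h2, mem_bot, commutatorElement_eq_one_iff_mul_comm] at h5
  exact h5.symm

/-- commuting elements of coprime orders -/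
theorem exists_orderOf_mul {X Y : Subgroup G} (hc : Y ≤ centralizer (X : Set G)) {m n : ℕ}
    (hmn : Nat.Coprime m n) (hx : ∃ x : ↥X, orderOf x = m) (hy : ∃ y : ↥Y, orderOf y = n) :
    ∃ z ∈ X ⊔ Y, orderOf z = m * n := by
  obtain ⟨x, rfl⟩ := hx
  obtain ⟨y, rfl⟩ := hy
  refine ⟨x * y, mul_mem (le_sup_left (a := X) x.2) (le_sup_right (a := X) y.2), ?_⟩
  have h1 : Commute (x : G) y := mem_centralizer_iff.1 (hc y.2) x x.2
  rw [← Subgroup.orderOf_coe, ← Subgroup.orderOf_coe] at hmn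
  rw [h1.orderOf_mul_eq_mul_orderOf_of_coprime hmn, Subgroup.orderOf_coe, Subgroup.orderOf_coe]

end Gen

/-! ### orders of the parabolics -/

/-- the odd parts -/
def mm7 : Fin 7 → ℕ := ![3 ^ 8 * 5 ^ 2 * 7 ^ 2 * 11 * 17 * 31, 3 ^ 4 * 5 * 7 ^ 2 * 31 * 127, 3 ^ 5 * 5 * 7 ^ 2 * 31,
  3 ^ 4 * 5 * 7 ^ 2, 3 ^ 3 * 5 * 7 ^ 2 * 31, 3 ^ 6 * 5 ^ 2 * 7 * 17 * 31, 3 ^ 6 * 5 ^ 2 * 7 ^ 3 * 13 * 17 * 31 * 73]

theorem card_P6 (h : BoxP6) : Nat.card ↥(Par.P7 6) ∣ 2 ^ 63 * mm7 6 := by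
  obtain ⟨k, hk⟩ := HasHom.card_dvd h (n := 2 ^ 36 * mm7 6) (by rw [card_E6]; decide +kernel)
  have h5 : Nat.card ↥(Par.P7 6) ∣ N7 := by
    rw [← card_G7]; exact Subgroup.card_subgroup_dvd_card _
  refine (Nat.dvd_gcd hk h5).trans ?_
  have h7 : N7 = 2 ^ 63 * (3 ^ 11 * 5 ^ 2 * 7 ^ 3 * 11 * 13 * 17 * 19 * 31 * 43 * 73 * 127) := by
    unfold N7; ring
  rw [← mul_assoc, ← pow_add, h7]
  have h8 : Nat.Coprime (2 ^ (k + 36)) (3 ^ 11 * 5 ^ 2 * 7 ^ 3 * 11 * 13 * 17 * 19 * 31 * 43 * 73 * 127) :=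
    Nat.Coprime.pow_left _ (by decide +kernel)
  refine (Nat.gcd_mul_right_dvd_mul_gcd _ _ _).trans ?_
  refine Nat.mul_dvd_mul (Nat.gcd_dvd_right _ _) ?_
  rw [Nat.Coprime.gcd_mul_left_cancel _ h8]
  exact Nat.gcd_dvd_left _ _

theorem mm_eq : ∀ j : Fin 6, Par.mm j = mm7 (Fin.castSucc j) := by decide +kernel

theorem card_P7 (h : BoxP6) (j : Fin 7) : Nat.card ↥(Par.P7 j) ∣ 2 ^ 63 * mm7 j := by
  induction j using Fin.lastCases with
  | last => exact card_P6 h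
  | cast j =>
    have h1 := Par.card_P7_dvd j
    rw [← mm_eq]; exact h1

/-- not parabolic, by orders -/
theorem notSim (h : BoxP6) {M : Subgroup G7} {lo : ℕ} (hlo : lo ∣ Nat.card ↥M) {j : Fin 7}
    (hj : ¬ lo ∣ 2 ^ 63 * mm7 j) : ¬ Sim (Par.P7 j) M := by
  intro hs
  apply hj
  have h1 := card_P7 h j
  rw [hs.card] at h1
  exact hlo.trans h1

/-- elements of order 117, 217 -/
theorem notSim6 (h : BoxP6) (h2 : BoxX2) {M : Subgroup G7} {z : G7} (hz : z ∈ M)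
    (ho : orderOf z = 117 ∨ orderOf z = 217) : ¬ Sim (Par.P7 6) M := by
  intro hs
  have h1 : HasHom ↥M ↥(Cfsg.Lie.chevE6.group (ZMod 2)) := hom_of_sim hs h
  obtain ⟨x, hx⟩ := HasHom.orderOf_mem h1 hz (by rcases ho with h | h <;> rw [h] <;> decide)
  rcases ho with h | h
  · exact (h2 x).1 (hx.trans h)
  · exact (h2 x).2 (hx.trans h)

end Cfsg.Agent.R2.H27.Asm
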