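import Cfsg.Agent.R2.H27.Np
import Cfsg.Agent.R2.H27S.BoxOne

/-!
# S5934, box P6 (helper27)
-/

set_option autoImplicit false

namespace Cfsg.Agent.R2.H27.P6

open Subgroup Cfsg.Agent.R2.H27.Asm
open Cfsg.Agent.Nodes.BNOf Cfsg.Agent.Nodes.StabComb Cfsg.Agent.Nodes.LeviDec Cfsg.Agent.Nodes.OppDec Cfsg.Agent.Nodes.Bruhat

theorem hasHom_of_split {G E : Type*} [Group G] [Group E] {P L V : Subgroup G} (hLP : L ≤ P) (hVP : V ≤ P)
    (hPV : P ≤ normalizer (V : Set G)) (hV : IsPGroup 2 ↥V) (hmem : ∀ g ∈ P, ∃ l ∈ L, ∃ v ∈ V, g = l * v)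
    (hd : L ⊓ V = ⊥) {φ : E →* G} (hinj : Function.Injective φ) (hr : φ.range = L) : HasHom ↥P E := by
  have hn : (V.subgroupOf P).Normal := (Subgroup.normal_subgroupOf_iff_le_normalizer hVP).2 hPV
  have hφP : ∀ x, φ x ∈ P := fun x => hLP (hr ▸ ⟨x, rfl⟩)
  let ψ : E →* (↥P ⧸ V.subgroupOf P) := (QuotientGroup.mk' (V.subgroupOf P)).comp (φ.codRestrict P hφP)
  have hb : Function.Bijective ψ := by
    constructor
    · rw [← MonoidHom.ker_eq_bot_iff, eq_bot_iff]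
      intro x hx
      rw [MonoidHom.mem_ker] at hx
      have h1 : φ.codRestrict P hφP x ∈ V.subgroupOf P := by
        rw [← QuotientGroup.ker_mk' (V.subgroupOf P), MonoidHom.mem_ker]
        exact hx
      have h2 : φ x ∈ V := h1
      have h3 : φ x ∈ L ⊓ V := ⟨hr ▸ ⟨x, rfl⟩, h2⟩
      rw [hd, mem_bot] at h3
      rw [mem_bot]
      exact hinj (h3.trans (map_one φ).symm)
    · intro y
      obtain ⟨⟨g, hg⟩, rfl⟩ := QuotientGroup.mk'_surjective _ y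
      obtain ⟨l, hl, v, hv, rfl⟩ := hmem g hg
      rw [← hr] at hl
      obtain ⟨x, rfl⟩ := hl
      refine ⟨x, ?_⟩
      show QuotientGroup.mk' (V.subgroupOf P) (φ.codRestrict P hφP x) = QuotientGroup.mk' (V.subgroupOf P) _
      rw [QuotientGroup.mk'_eq_mk']
      exact ⟨⟨v, hVP hv⟩, hv, rfl⟩
  refine hom_of_quot hn ?_ (MulEquiv.ofBijective ψ hb).symm
  exact (hV.comap_of_injective P.subtype P.subtype_injective)

theorem box_P6 : BoxP6 := by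
  obtain ⟨φ, h1, h2⟩ := Cfsg.Agent.R2.H27S.BoxOne.exists_levi
  have h2' : φ.range = LJ Par.cs7 Par.h7 Par.T7 Par.X7 {i | i ≠ 6} := h2
  have hV : IsPGroup 2 ↥(VJ Par.cs7 Par.h7 Par.X7 ({i | i ≠ 6} : Set (Fin 7))) :=
    (Par.R7.isPGroup_Upos).to_le (VJ_le_U _)
  exact hasHom_of_split (P := Par.P7 6) LJ_le_PJ VJ_le_PJ (PJ_le_normalizer_VJ Par.R7 _) hV
    (fun g hg => (mem_PJ Par.R7).1 hg) (LJ_inf_VJ Par.R7 _) h1 h2'

end Cfsg.Agent.R2.H27.P6
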