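import Cfsg.Agent.R2.H27.Par
import Cfsg.Agent.H35.ExcIdx

/-!
# S5934, box P: the orders of the maximal parabolic subgroups of `E₇(2)` (helper27)
-/

set_option autoImplicit false

namespace Cfsg.Agent.R2.H27.Par

open CoxeterSystem Cfsg.Agent.ChevalleyStructure.CoxeterGeom Cfsg.Agent.Tits.Roots Cfsg.Agent.Tits.Core
  Cfsg.Agent.Tits.RootComb Cfsg.Agent.Nodes.Comb Cfsg.Agent.Nodes.Reps Cfsg.Agent.Nodes.BNOf
  Cfsg.Agent.Nodes.StabComb Cfsg.Agent.Nodes.Bruhat Cfsg.Agent.Nodes.LeviDec Cfsg.Agent.Nodes.OppDec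
open Cfsg.Lie Cfsg.Agent.ChevalleyStructure Cfsg.Agent.ChevalleyStructure.CoxeterGeomTypes
  Cfsg.Agent.ChevalleyStructure.NPerm
open Cfsg.Agent.Nodes Cfsg.Agent.Nodes.RGDChev
open Cfsg.Agent.KFacts.RgdChevCoord (TT XX nc)
open Cfsg.Agent.H35.Poin Cfsg.Agent.H965.XZ Cfsg.Agent.H35.ExcIdx

theorem card_X7 {x : Fin 7 → ℤ} (hx : IsRoot cs7 h7 x) : Nat.card (X7 x) = 2 := by
  have h1 := card_XX hp7 (ZMod 2) cs7 hx
  rw [Nat.card_zmod] at h1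
  exact h1

theorem card_X7s (i : Fin 7) : Nat.card (X7 (sr i)) = 2 := card_X7 (isRoot_sr cs7 h7 i)

/-- the order of `P_J` is `N |B|` -/
def Cd (J : Set (Fin 7)) (N : ℕ) : Prop :=
  Nat.card ↥(PJ cs7 h7 T7 X7 J) = N * Nat.card ↥(RGD.B cs7 h7 T7 X7)

theorem cd_nil : Cd {j | j ∈ ([] : List (Fin 7))} 1 := card_nil R7

theorem cd_path {L C L' : List (Fin 7)} {N : ℕ} (hP : PathOK CoxeterMatrix.E₇ L C L' 0)
    (hN : Cd {j | j ∈ L'} N) : Cd {j | j ∈ L} (FA C.length 2 * N) :=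
  card_step R7 hP (fun i _ => card_X7s i) hN

/-- the list form of `DPath` -/
structure DOK (L C L' : List (Fin 7)) (l : ℕ) : Prop where
  sub : ∀ t < l + 3, C.getD t 0 ∈ L
  adj : ∀ t < l + 1, CoxeterMatrix.E₇ (C.getD t 0) (C.getD (t + 1) 0) = 3
  fork : CoxeterMatrix.E₇ (C.getD l 0) (C.getD (l + 2) 0) = 3
  far : ∀ t < l + 2, ∀ s < l + 2, s + 1 < t → CoxeterMatrix.E₇ (C.getD s 0) (C.getD t 0) = 2
  farl : ∀ s < l, CoxeterMatrix.E₇ (C.getD s 0) (C.getD (l + 2) 0) = 2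
  comm : CoxeterMatrix.E₇ (C.getD (l + 1) 0) (C.getD (l + 2) 0) = 2
  out : ∀ j ∈ L, (∀ t < l + 3, C.getD t 0 ≠ j) → ∀ t < l + 3, CoxeterMatrix.E₇ (C.getD t 0) j = 2
  inj : ∀ s < l + 3, ∀ t < l + 3, C.getD s 0 = C.getD t 0 → s = t
  rest : ∀ j, j ∈ L' ↔ j ∈ L ∧ C.getD 0 0 ≠ j

theorem cd_dpath {L C L' : List (Fin 7)} {l N : ℕ} (hP : DOK L C L' l) (hN : Cd {j | j ∈ L'} N) :
    Cd {j | j ∈ L} (gs 2 (l + 3) * (1 + 2 ^ (l + 2)) * N) := by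
  have h1 : DPath (cartanOf chevE7 7) {j | j ∈ L} (fun t => C.getD t 0) l := by
    refine ⟨hP.sub, fun t ht => cartan_three h7 (hP.adj t ht), cartan_three h7 hP.fork, ?_, ?_,
      cartan_two h7 hP.comm, ?_, hP.inj⟩
    · intro s t hst ht
      exact cartan_two h7 (hP.far t ht s (by omega) hst)
    · intro s hs
      exact cartan_two h7 (hP.farl s hs)
    · intro j hj hne t ht
      exact (cartan_two h7 (hP.out j hj hne t ht)).1
  have h2 := card_PJ_dpath R7 h1 (fun t _ => card_X7s _)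
  have h3 : ({j | j ∈ L} \ {(fun t => C.getD t 0) 0} : Set (Fin 7)) = {j | j ∈ L'} := by
    ext j
    constructor
    · rintro ⟨h4, h5⟩
      exact (hP.rest j).2 ⟨h4, fun h => h5 h.symm⟩
    · intro h4
      obtain ⟨h5, h6⟩ := (hP.rest j).1 h4
      exact ⟨h5, fun h => h6 h.symm⟩
  unfold Cd at hN ⊢
  rw [h2, h3, hN]
  ring

theorem set_eq {L : List (Fin 7)} {j : Fin 7} (h : ∀ i, i ∈ L ↔ i ≠ j) : {i | i ≠ j} = {i | i ∈ L} := by
  ext i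
  exact (h i).symm

theorem cd1 : Cd {i | i ≠ 1} (FA 6 2 * 1) := by
  rw [set_eq (L := [0, 2, 3, 4, 5, 6]) (by decide)]
  exact cd_path (C := [0, 2, 3, 4, 5, 6]) (by constructor <;> decide +kernel) cd_nil

theorem cd2 : Cd {i | i ≠ 2} (FA 1 2 * (FA 5 2 * 1)) := by
  rw [set_eq (L := [0, 1, 3, 4, 5, 6]) (by decide)]
  exact cd_path (C := [0]) (L' := [1, 3, 4, 5, 6]) (by constructor <;> decide +kernel)
    (cd_path (C := [1, 3, 4, 5, 6]) (by constructor <;> decide +kernel) cd_nil)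

theorem cd3 : Cd {i | i ≠ 3} (FA 2 2 * (FA 1 2 * (FA 3 2 * 1))) := by
  rw [set_eq (L := [0, 1, 2, 4, 5, 6]) (by decide)]
  exact cd_path (C := [0, 2]) (L' := [1, 4, 5, 6]) (by constructor <;> decide +kernel)
    (cd_path (C := [1]) (L' := [4, 5, 6]) (by constructor <;> decide +kernel)
    (cd_path (C := [4, 5, 6]) (by constructor <;> decide +kernel) cd_nil))

theorem cd4 : Cd {i | i ≠ 4} (FA 4 2 * (FA 2 2 * 1)) := by
  rw [set_eq (L := [0, 1, 2, 3, 5, 6]) (by decide)]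
  exact cd_path (C := [0, 2, 3, 1]) (L' := [5, 6]) (by constructor <;> decide +kernel)
    (cd_path (C := [5, 6]) (by constructor <;> decide +kernel) cd_nil)

theorem cd5 : Cd {i | i ≠ 5} (FA 1 2 * (gs 2 5 * (1 + 2 ^ 4) * (gs 2 4 * (1 + 2 ^ 3) * (FA 3 2 * 1)))) := by
  rw [set_eq (L := [0, 1, 2, 3, 4, 6]) (by decide)]
  exact cd_path (C := [6]) (L' := [0, 1, 2, 3, 4]) (by constructor <;> decide +kernel)
    (cd_dpath (C := [0, 2, 3, 1, 4]) (L' := [1, 2, 3, 4]) (l := 2) (by constructor <;> decide +kernel)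
    (cd_dpath (C := [2, 3, 1, 4]) (L' := [1, 3, 4]) (l := 1) (by constructor <;> decide +kernel)
    (cd_path (C := [1, 3, 4]) (by constructor <;> decide +kernel) cd_nil)))

theorem cd0 : Cd {i | i ≠ 0} (gs 2 6 * (1 + 2 ^ 5) * (gs 2 5 * (1 + 2 ^ 4) *
    (gs 2 4 * (1 + 2 ^ 3) * (FA 3 2 * 1)))) := by
  rw [set_eq (L := [1, 2, 3, 4, 5, 6]) (by decide)]
  exact cd_dpath (C := [6, 5, 4, 3, 1, 2]) (L' := [1, 2, 3, 4, 5]) (l := 3) (by constructor <;> decide +kernel)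
    (cd_dpath (C := [5, 4, 3, 1, 2]) (L' := [1, 2, 3, 4]) (l := 2) (by constructor <;> decide +kernel)
    (cd_dpath (C := [4, 3, 1, 2]) (L' := [1, 2, 3]) (l := 1) (by constructor <;> decide +kernel)
    (cd_path (C := [1, 3, 2]) (by constructor <;> decide +kernel) cd_nil)))

theorem card_B_dvd : Nat.card ↥(RGD.B cs7 h7 T7 X7) ∣ 2 ^ 63 := by
  have h1 : RGD.B cs7 h7 T7 X7 = RGD.Sup X7 (RGD.Pos cs7 h7) := by
    show T7 ⊔ _ = _
    rw [T7_bot, bot_sup_eq]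
  have h2 : IsPGroup 2 ↥(RGD.B cs7 h7 T7 X7) := by
    rw [h1]
    exact R7.isPGroup_Upos
  obtain ⟨n, hn⟩ := (IsPGroup.iff_card (p := 2)).1 h2
  rw [hn]
  have h3 : 2 ^ n ∣ N7 := by
    rw [← hn, ← card_G7]
    exact Subgroup.card_subgroup_dvd_card _
  have h4 : N7 = 2 ^ 63 * (3 ^ 11 * 5 ^ 2 * 7 ^ 3 * 11 * 13 * 17 * 19 * 31 * 43 * 73 * 127) := by
    unfold N7; ring
  rw [h4] at h3
  refine Nat.Coprime.dvd_of_dvd_mul_right ?_ h3
  exact Nat.Coprime.pow_left _ (by decide +kernel)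

/-- the odd parts of the orders -/
def mm : Fin 6 → ℕ := ![3 ^ 8 * 5 ^ 2 * 7 ^ 2 * 11 * 17 * 31, 3 ^ 4 * 5 * 7 ^ 2 * 31 * 127, 3 ^ 5 * 5 * 7 ^ 2 * 31,
  3 ^ 4 * 5 * 7 ^ 2, 3 ^ 3 * 5 * 7 ^ 2 * 31, 3 ^ 6 * 5 ^ 2 * 7 * 17 * 31]

theorem card_P7_dvd (j : Fin 6) : Nat.card ↥(P7 (Fin.castSucc j)) ∣ 2 ^ 63 * mm j := by
  have key : ∀ (j : Fin 7) (N m : ℕ), Cd {i | i ≠ j} N → N = m → Nat.card ↥(P7 j) ∣ 2 ^ 63 * m := by
    intro j N m h1 h2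
    unfold Cd at h1
    show Nat.card ↥(PJ cs7 h7 T7 X7 {i | i ≠ j}) ∣ _
    rw [h1, h2, mul_comm]
    exact Nat.mul_dvd_mul card_B_dvd (dvd_refl m)
  fin_cases j
  · exact key 0 _ _ cd0 (by decide +kernel)
  · exact key 1 _ _ cd1 (by decide +kernel)
  · exact key 2 _ _ cd2 (by decide +kernel)
  · exact key 3 _ _ cd3 (by decide +kernel)
  · exact key 4 _ _ cd4 (by decide +kernel)
  · exact key 5 _ _ cd5 (by decide +kernel)

end Cfsg.Agent.R2.H27.Par
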