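import Cfsg.Agent.R2.H27.Par
import Cfsg.Agent.H974.ExcE
import Cfsg.Agent.KFacts.RgdCent

/-!
# S5934, box P: `P7 0` centralises a root element; centralisers of root subgroups over `𝔽₂` (helper27)
-/

set_option autoImplicit false

namespace Cfsg.Agent.R2.H27.Par

open CoxeterSystem Cfsg.Agent.ChevalleyStructure.CoxeterGeom Cfsg.Agent.Tits.Roots Cfsg.Agent.Tits.Core
  Cfsg.Agent.Tits.RootComb Cfsg.Agent.Nodes.Comb Cfsg.Agent.Nodes.Reps Cfsg.Agent.Nodes.BNOf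
  Cfsg.Agent.Nodes.StabComb Cfsg.Agent.Nodes.Bruhat Cfsg.Agent.Nodes.LeviDec Cfsg.Agent.Nodes.OppDec
  Cfsg.Agent.Nodes.Coroot
open Cfsg.Lie Cfsg.Agent.ChevalleyStructure Cfsg.Agent.ChevalleyStructure.CoxeterGeomTypes
  Cfsg.Agent.ChevalleyStructure.NPerm Cfsg.Agent.ChevalleyStructure.RootVec
open Cfsg.Agent.Nodes Cfsg.Agent.Nodes.RGDChev Cfsg.Agent.KFacts.RgdSL Cfsg.Agent.KFacts.RgdCent
  Cfsg.Agent.KFacts.RgdTI
open Cfsg.Agent.KFacts.RgdChevCoord (TT XX nc)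
open Cfsg.Agent.H974.Exc (sl_E7 cf cpr_of isRoot_of)

theorem sl7 : SL cs7 h7 := sl_E7 cs7

theorem adj7 : ∀ r ∈ List.range 126, ∃ s ∈ List.range 126, cf (cartanOf chevE7 7) (vec chevE7 7 r) (vec chevE7 7 s) = 1 := by
  decide +kernel

theorem lr7 (a : Fin 7 → ℤ) (ha : IsRoot cs7 h7 a) : LR R7 a := by
  refine lr_all R7 sl7 (fun a ha => ?_) a ha
  obtain ⟨r, hr, rfl⟩ := (isRoot_iff hp7 cs7 a).1 ha
  obtain ⟨s, hs, h1⟩ := adj7 r (List.mem_range.2 hr)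
  exact ⟨vec chevE7 7 s, isRoot_of hp7 cs7 ⟨s, hs, rfl⟩, cpr_of hp7 sl7 _ (isRoot_of hp7 cs7 ⟨s, hs, rfl⟩) h1⟩

/-- the highest root -/
def hi7 : Fin 7 → ℤ := vec chevE7 7 125

theorem isRoot_hi7 : IsRoot cs7 h7 hi7 := isRoot_of hp7 cs7 ⟨125, by decide, rfl⟩

theorem hi7_eq : ∀ i : Fin 7, ∑ k, cartanOf chevE7 7 i k * hi7 k = if i = 0 then 1 else 0 := by decide +kernel

theorem cpr_hi7 (x : Fin 7 → ℤ) : cpr cs7 h7 x hi7 = x 0 := by
  refine cpr_of hp7 sl7 x isRoot_hi7 ?_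
  unfold cf
  rw [Finset.sum_eq_single 0]
  · rw [hi7_eq]; simp
  · intro i _ hi
    rw [hi7_eq, if_neg hi, mul_zero]
  · intro h; exact absurd (Finset.mem_univ _) h

theorem P7_zero_le : P7 0 ≤ Subgroup.centralizer (X7 hi7 : Set G7) := by
  have key : ∀ a, IsRoot cs7 h7 a → 0 ≤ a 0 → X7 a ≤ Subgroup.centralizer (X7 hi7 : Set G7) := by
    intro a ha h0 u hu
    rw [Subgroup.mem_centralizer_iff]
    intro v hv
    exact ((lr7 hi7 isRoot_hi7).comm a ha (by rw [cpr_hi7]; exact h0) u hu v hv).symm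
  refine sup_le (sup_le ?_ (RGD.Sup_le fun x hx => key x hx.1 ?_)) (RGD.Sup_le fun x hx => key x hx.1 ?_)
  · rw [T7_bot]; exact bot_le
  · exact (hx.2 0 (by simp)).ge
  · exact hx.2.1 0

/-- `P7 0` centralises a nontrivial element -/
theorem P7_zero : ∃ x : G7, x ≠ 1 ∧ P7 0 ≤ Subgroup.centralizer {x} := by
  obtain ⟨⟨z, hz⟩, hz1⟩ := (Subgroup.ne_bot_iff_exists_ne_one).1 (X_ne_bot R7 isRoot_hi7)
  refine ⟨z, fun h0 => hz1 (Subtype.ext h0), fun g hg => ?_⟩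
  rw [Subgroup.mem_centralizer_singleton_iff]
  exact (Subgroup.mem_centralizer_iff.1 (P7_zero_le hg) z hz).symm

end Cfsg.Agent.R2.H27.Par
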