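import Cfsg.Agent.H129.TorusMain
import Cfsg.Agent.Nodes.NormalForm

/-!
# Centralisers of finite subsets of the torus of `D.group k` (S5934, box T11; helper27)
-/

set_option autoImplicit false
set_option linter.unusedSectionVars false

namespace Cfsg.Agent.R2.H27.TorA

open CoxeterSystem Cfsg Cfsg.Lie Cfsg.Lie.ChevalleyDatum
open Cfsg.Agent.ChevalleyStructure Cfsg.Agent.ChevalleyStructure.Elts Cfsg.Agent.ChevalleyStructure.CoxeterGeom
  Cfsg.Agent.ChevalleyStructure.CoxeterGeomTypes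
open Cfsg.Agent.Tits.Roots Cfsg.Agent.Tits.Core Cfsg.Agent.Nodes Cfsg.Agent.Nodes.Reps Cfsg.Agent.Nodes.BNOf
  Cfsg.Agent.Nodes.RGDChev Cfsg.Agent.Nodes.Bruhat Cfsg.Agent.Nodes.SubComb Cfsg.Agent.Nodes.NormalForm
open Cfsg.Agent.KFacts.RgdField Cfsg.Agent.KFacts.RgdChevCoord Cfsg.Agent.BpExc.TorCent Cfsg.Agent.BpExc.TorChev
open Cfsg.Agent.GpExc.Field Cfsg.Agent.BpExc.Tow Cfsg.Agent.BpExc.TowChev Cfsg.Agent.BpExc.Fr
  Cfsg.Agent.H129.TorusChar

universe u

variable {D : ChevalleyDatum} {l : ℕ} {M : CoxeterMatrix (Fin l)} (hp : IsType D l M) {k : Type u} [Field k]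
  {W : Type*} [Group W] (cs : CoxeterSystem M W)

/-- **The centraliser of a finite subset of the torus is contained in the torus.** -/
theorem mem_TT_of_centralizer [Finite W] (hk : LocFin k) (p : ℕ) [Fact p.Prime] [CharP k p]
    {S : Set ↥(D.group k)} (hS : S.Finite) (hST : S ⊆ TT D k)
    (h1 : ∀ a, IsRoot cs hp.isCartan a → ∃ t ∈ S, cX hp t a ≠ 1)
    (h2 : ∀ w : W, (∀ t ∈ S, ∀ a, IsRoot cs hp.isCartan a →
      cX hp t (rep cs hp.isCartan w a) = cX hp t a) → w = 1)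
    {c : ↥(D.group k)} (hc : c ∈ Subgroup.centralizer S) : c ∈ TT D k := by
  have H := tow hp cs hk p
  have C := coordsL hp cs hk p
  rw [← TL_eq hp hk, ← XL_eq hp hk] at C
  have hT : ∀ t ∈ S, t ∈ TL (Tj hp (k := k)) := by
    intro t ht
    rw [TL_eq hp hk]; exact hST ht
  have hcG : c ∈ GG cs hp.isCartan (TL (Tj hp (k := k))) (XL (Xj hp)) := by
    rw [GG_eq_top hp cs hk]; exact Subgroup.mem_top c
  -- a common level
  have hlev : ∃ j, S ⊆ (Tj hp (k := k) j : Subgroup ↥(D.group k)) := by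
    refine Set.Finite.induction_on_subset S hS ?_ ?_
    · obtain ⟨j⟩ := H.ne
      exact ⟨j, Set.empty_subset _⟩
    · rintro a s ha hs hna ⟨j1, hj1⟩
      obtain ⟨j2, hj2⟩ := H.mem_TL.1 (hT a ha)
      obtain ⟨j, b1, b2⟩ := H.dir j1 j2
      refine ⟨j, Set.insert_subset (H.monoT b2 hj2) (fun x hx => H.monoT b1 (hj1 hx))⟩
  obtain ⟨j1, hj1⟩ := hlev
  obtain ⟨j2, hj2⟩ := H.mem_GG.1 hcG
  obtain ⟨j, b1, b2⟩ := H.dir j1 j2
  have hSj : S ⊆ (Tj hp (k := k) j : Subgroup ↥(D.group k)) := fun x hx => H.monoT b1 (hj1 hx)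
  obtain ⟨u, hu, w, n, hn, hnc, v, hv, rfl⟩ := mem_centralizer (H.rgd j) hSj (H.mono_GG b2 hj2) hc
  have hbot : ∀ x, IsRoot cs hp.isCartan x → Xj hp (k := k) j x ⊓ Subgroup.centralizer S = ⊥ := by
    intro x hx
    rw [eq_bot_iff]
    rintro y ⟨hy, hyc⟩
    by_contra hne
    obtain ⟨t, htS, ht1⟩ := h1 x hx
    have h3 := mem_Sx_of_centralizer C (hT t htS) hx (le_XL j x hy) hne (by
      rw [Subgroup.mem_centralizer_singleton_iff]
      exact (Subgroup.mem_centralizer_iff.1 hyc t htS).symm)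
    exact ht1 (by rw [cX_root hp cs (hST htS) hx]; exact h3.2)
  have hSup : RGD.Sup (fun x => Xj hp (k := k) j x ⊓ Subgroup.centralizer S) (RGD.Pos cs hp.isCartan) ≤ ⊥ :=
    RGD.Sup_le fun x hx => (hbot x hx.1).le
  have hu1 : u = 1 := Subgroup.mem_bot.1 (hSup hu)
  have hv1 : v = 1 := Subgroup.mem_bot.1 (hSup hv)
  subst hu1 hv1
  rw [one_mul, mul_one] at hc ⊢
  have hnL := H.rp_up hn
  have hw : w = 1 := by
    refine h2 w fun t ht a ha => ?_
    have h3 := C.chi_rp H.nsys hnL ha (hT t ht)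
    have h4 : n * t * n⁻¹ = t := by
      have := Subgroup.mem_centralizer_iff.1 hnc t ht
      rw [← this]; group
    rw [h4] at h3
    rw [cX_root hp cs (hST ht) (ha.act w), cX_root hp cs (hST ht) ha]
    exact h3
  subst hw
  have h3 := hnL.mem_of_one
  rwa [TL_eq hp hk] at h3

end Cfsg.Agent.R2.H27.TorA
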