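import Cfsg.Agent.R2.H27.Par
import Cfsg.Agent.H154.PQE.Opp
import Cfsg.Agent.SporRec.TwoSp6.Sp
import Cfsg.Agent.LieClassical.SympCenter
import Cfsg.Agent.S0270

/-!
# `W(E₇) = 2 × Sp₆(2)` (S5934, box T11; helper27)
-/

set_option autoImplicit false
set_option linter.unusedSectionVars false
set_option maxRecDepth 100000

namespace Cfsg.Agent.R2.H27.WeylE7

open CoxeterSystem Cfsg Cfsg.Lie Cfsg.Lie.ChevalleyDatum
open Cfsg.Agent.ChevalleyStructure.CoxeterGeom Cfsg.Agent.ChevalleyStructure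
open Cfsg.Agent.ChevalleyStructure.CoxeterGeomTypes Cfsg.Agent.Nodes.RGDChev
open Cfsg.Agent.R2.H27.Par
open Cfsg.Agent.SporRec.TwoSp6.Cox (prod7 map_prod7 card_W liftable_of M_eq m7)
open Cfsg.Agent.SporRec.TwoSp6.Sp

abbrev W7 : Type := CoxeterMatrix.E₇.Group

/-- the longest element -/
noncomputable def w0 : W7 := cs7.wordProd Cfsg.Agent.H154.PQE.w0word

theorem rep_w0 (x : Fin 7 → ℤ) : rep cs7 h7 w0 x = -x := by
  have h1 : ∀ k : Fin 7, rep cs7 h7 w0 (Cfsg.Agent.Tits.Roots.sr k) = -Cfsg.Agent.Tits.Roots.sr k := by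
    intro k
    have hs := NPerm.simple_lt hp7.inList (lt_rank hp7 k)
    rw [← vec_simple hp7 k]
    have h2 := (Cfsg.Agent.H154.PQE.rep_word Cfsg.Agent.H154.PQE.w0word hs).2
    rw [Cfsg.Agent.H154.PQE.w0_check k, vec_neg hp7 hs] at h2
    exact h2
  conv_lhs => rw [Cfsg.Agent.H154.PQE.sum_sr x]
  conv_rhs => rw [Cfsg.Agent.H154.PQE.sum_sr x]
  rw [map_sum, ← Finset.sum_neg_distrib]
  refine Finset.sum_congr rfl fun k _ => ?_
  rw [map_smul, h1, smul_neg]

theorem w0_comm (w : W7) : w0 * w = w * w0 := by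
  apply rep_injective cs7 h7
  apply LinearMap.ext
  intro x
  rw [rep_mul_apply, rep_mul_apply, rep_w0, rep_w0, map_neg]

theorem w0_sq : w0 * w0 = 1 := by
  apply rep_injective cs7 h7
  apply LinearMap.ext
  intro x
  rw [rep_mul_apply, rep_w0, rep_w0, map_one, neg_neg, Module.End.one_apply]

/-- the Weyl group maps onto `Sp₆(2)` -/
theorem liftS : CoxeterMatrix.E₇.IsLiftable (fun i => tr (v i)) := by
  refine liftable_of _ (fun i => tr_sq _) (fun i j hij => ?_) (fun i j hij => ?_)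
  · exact tr_comm (by rw [om_v', if_neg (by omega)])
  · exact tr_braid (by rw [om_v', if_pos hij])

noncomputable def fS : W7 →* S := cs7.lift ⟨_, liftS⟩

theorem fS_simple (i : Fin 7) : fS (cs7.simple i) = tr (v i) := cs7.lift_apply_simple liftS i

theorem fS_surj : Function.Surjective fS := by
  rw [← MonoidHom.range_eq_top, eq_top_iff, ← closure_v, Subgroup.closure_le]
  rintro _ ⟨i, rfl⟩
  exact ⟨cs7.simple i, fS_simple i⟩

theorem wordProd_flatten (L : List (Fin 7)) (n : ℕ) :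
    cs7.wordProd (List.replicate n L).flatten = (cs7.wordProd L) ^ n := by
  induction n with
  | zero => rw [List.replicate_zero, List.flatten_nil, CoxeterSystem.wordProd_nil, pow_zero]
  | succ n ih => rw [List.replicate_succ, List.flatten_cons, CoxeterSystem.wordProd_append, ih, pow_succ']

theorem w0_eq : w0 = (prod7 cs7.simple) ^ 9 := by
  have h1 : w0 = (cs7.wordProd [0, 1, 2, 3, 4, 5, 6]) ^ 9 := wordProd_flatten _ _
  rw [h1]
  have h2 : cs7.wordProd [0, 1, 2, 3, 4, 5, 6] = prod7 cs7.simple := by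
    unfold prod7
    simp only [CoxeterSystem.wordProd_cons, CoxeterSystem.wordProd_nil, mul_one, mul_assoc]
  rw [h2]

theorem fS_w0 : fS w0 = 1 := by
  rw [w0_eq, map_pow, map_prod7]
  simp only [fS_simple]
  exact prod7_pow

/-- the even part of the Weyl group -/
noncomputable def Wp : Subgroup W7 := cs7.lengthParity.ker

theorem parity_w0 : cs7.lengthParity w0 = Multiplicative.ofAdd 1 := by
  rw [w0_eq, map_pow, map_prod7]
  simp only [CoxeterSystem.lengthParity_simple]
  unfold prod7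
  decide

theorem w0_notMem : w0 ∉ Wp := by
  intro h
  have h1 : cs7.lengthParity w0 = 1 := h
  rw [parity_w0] at h1
  revert h1
  decide

theorem mem_or (w : W7) : w ∈ Wp ∨ w * w0 ∈ Wp := by
  have h2 : ∀ a : Multiplicative (ZMod 2), a = 1 ∨ a * Multiplicative.ofAdd 1 = 1 := by decide
  rcases h2 (cs7.lengthParity w) with h | h
  · exact Or.inl h
  · right
    show cs7.lengthParity (w * w0) = 1
    rw [map_mul, parity_w0, h]

theorem card_ker_fS : Nat.card ↥fS.ker = 2 := by
  have h2 := Subgroup.card_eq_card_quotient_mul_card_subgroup fS.ker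
  rw [Nat.card_congr (QuotientGroup.quotientKerEquivOfSurjective fS fS_surj).toEquiv, card_S] at h2
  have h3 : Nat.card W7 = 2903040 := card_W
  rw [h3] at h2
  omega

theorem mem_ker_fS {w : W7} (h : fS w = 1) : w = 1 ∨ w = w0 := by
  have h1 : w0 ≠ 1 := fun h => w0_notMem (h ▸ one_mem _)
  have h3 : Subgroup.zpowers w0 = fS.ker := by
    apply Subgroup.eq_of_le_of_card_ge
    · rw [Subgroup.zpowers_le]; exact fS_w0
    · rw [card_ker_fS, Nat.card_zpowers, orderOf_eq_prime (by rw [pow_two, w0_sq]) h1]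
  have h4 : w ∈ Subgroup.zpowers w0 := by rw [h3]; exact h
  obtain ⟨k, rfl⟩ := Subgroup.mem_zpowers_iff.1 h4
  rcases Int.even_or_odd k with ⟨m, hm⟩ | ⟨m, hm⟩
  · left
    rw [hm, zpow_add, ← (Commute.refl w0).mul_zpow, w0_sq, one_zpow]
  · right
    rw [hm, zpow_add, two_mul, zpow_add, zpow_one, ← (Commute.refl w0).mul_zpow, w0_sq, one_zpow, one_mul]

/-- `W⁺ ≃ Sp₆(2)` -/
theorem exists_equiv : Nonempty (↥Wp ≃* S) := by
  refine ⟨MulEquiv.ofBijective (fS.comp Wp.subtype) ⟨?_, ?_⟩⟩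
  · rw [← MonoidHom.ker_eq_bot_iff, eq_bot_iff]
    rintro ⟨w, hw⟩ h
    rcases mem_ker_fS (show fS w = 1 from h) with h1 | h1
    · exact Subtype.ext h1
    · exact absurd (h1 ▸ hw) w0_notMem
  · intro s
    obtain ⟨w, rfl⟩ := fS_surj s
    rcases mem_or w with h | h
    · exact ⟨⟨w, h⟩, rfl⟩
    · refine ⟨⟨w * w0, h⟩, ?_⟩
      show fS (w * w0) = fS w
      rw [map_mul, fS_w0, mul_one]

theorem simple_S : IsSimpleGroup S := by
  have h1 : IsSimpleGroup (Cfsg.PSp 3 (ZMod 2)) := Cfsg.Agent.S0270.result (F := ZMod 2) 3 (by norm_num) (by norm_num)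
  have h2 : Nat.card (Subgroup.center S) = 1 := by
    have := Cfsg.Agent.LieClassical.SympCenter.card_center (F := ZMod 2) (m := 3) (by norm_num)
    rw [this]
    simp [ZMod.card]
  have h3 : Subgroup.center S = ⊥ := Subgroup.eq_bot_of_card_eq _ h2
  have h4 : IsSimpleGroup (S ⧸ Subgroup.center S) := h1
  have e : (S ⧸ Subgroup.center S) ≃* S :=
    (QuotientGroup.quotientMulEquivOfEq h3).trans QuotientGroup.quotientBot
  exact e.symm.isSimpleGroup

theorem simple_Wp : IsSimpleGroup ↥Wp := by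
  obtain ⟨e⟩ := exists_equiv
  have := simple_S
  exact e.isSimpleGroup

theorem card_Wp : Nat.card ↥Wp = 1451520 := by
  obtain ⟨e⟩ := exists_equiv
  rw [Nat.card_congr e.toEquiv, card_S]

end Cfsg.Agent.R2.H27.WeylE7
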