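import Cfsg.Agent.R2.H27.TorA
import Cfsg.Agent.R2.H27.WeylE7
import Cfsg.Agent.R2.E72T.Iso

/-!
# The subgroup `3^7 : W(E₇)` of `E₇(k)` (S5934, box T11; helper27)

* `A7` : the elements of order 3 of the torus; `card_A7`;
* `nu : W(E₇) →* E₇(k)`;
* `tau` : the Frobenius map twisted by the longest element; `PT` : its fixed points.
-/

set_option autoImplicit false
set_option linter.unusedSectionVars false
set_option maxRecDepth 100000

namespace Cfsg.Agent.R2.H27.TorB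

open CoxeterSystem Cfsg Cfsg.Lie Cfsg.Lie.ChevalleyDatum
open Cfsg.Agent.ChevalleyStructure Cfsg.Agent.ChevalleyStructure.Elts Cfsg.Agent.ChevalleyStructure.CoxeterGeom
  Cfsg.Agent.ChevalleyStructure.CoxeterGeomTypes
open Cfsg.Agent.Tits.Roots Cfsg.Agent.Tits.Core Cfsg.Agent.Nodes Cfsg.Agent.Nodes.Reps Cfsg.Agent.Nodes.BNOf
  Cfsg.Agent.Nodes.RGDChev Cfsg.Agent.Nodes.Bruhat Cfsg.Agent.Nodes.SubComb Cfsg.Agent.Nodes.NormalForm
open Cfsg.Agent.KFacts.RgdField Cfsg.Agent.KFacts.RgdChevCoord Cfsg.Agent.BpExc.TorCent Cfsg.Agent.BpExc.TorChev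
open Cfsg.Agent.GpExc.Field Cfsg.Agent.BpExc.Tow Cfsg.Agent.BpExc.TowChev Cfsg.Agent.BpExc.Fr
  Cfsg.Agent.H129.TorusChar Cfsg.Agent.H129.TorusMain Cfsg.Agent.H129.TorusUntw
open Cfsg.Agent.R2.H27.Par Cfsg.Agent.R2.H27.WeylE7

/-- the algebraic closure of the field with two elements -/
abbrev KK : Type := AlgebraicClosure (ZMod 2)

instance : CharP KK 2 := charP_of_injective_algebraMap (algebraMap (ZMod 2) KK).injective 2

/-- `E₇(k)` -/
abbrev Y7 : Type := ↥(chevE7.group KK)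

/-- the torus -/
noncomputable abbrev TY : Subgroup Y7 := TT chevE7 KK

theorem hLF : LocFin KK := locFin_of_isAlgebraic 2 _

theorem cX_inv {t : Y7} (ht : t ∈ TY) (x : Fin 7 → ℤ) : cX hp7 t⁻¹ x = (cX hp7 t x)⁻¹ := by
  have h1 := cX_mul hp7 (inv_mem ht) ht x
  rw [inv_mul_cancel, cX_one] at h1
  exact eq_inv_of_mul_eq_one_left h1.symm

/-- the elements of order three of the torus -/
noncomputable def A7 : Subgroup Y7 where
  carrier := {t | t ∈ TY ∧ ∀ x, cX hp7 t x ^ 3 = 1}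
  mul_mem' := by
    rintro a b ⟨ha, ha'⟩ ⟨hb, hb'⟩
    refine ⟨mul_mem ha hb, fun x => ?_⟩
    rw [cX_mul hp7 ha hb, mul_pow, ha', hb', one_mul]
  one_mem' := ⟨one_mem _, fun x => by rw [cX_one, one_pow]⟩
  inv_mem' := by
    rintro a ⟨ha, ha'⟩
    refine ⟨inv_mem ha, fun x => ?_⟩
    rw [cX_inv ha, inv_pow, ha', inv_one]

theorem mem_A7 {t : Y7} : t ∈ A7 ↔ t ∈ TY ∧ ∀ x, cX hp7 t x ^ 3 = 1 := Iff.rfl

theorem A7_le : A7 ≤ TY := fun _ h => h.1

theorem exists_zeta : ∃ ζ : KK, IsPrimitiveRoot ζ 3 := by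
  have : NeZero ((3 : ℕ) : KK) := by
    refine ⟨?_⟩
    have h1 : ((3 : ℕ) : KK) = 1 := by
      have h2 : ((2 : ℕ) : KK) = 0 := CharP.cast_eq_zero KK 2
      have : (3 : ℕ) = 2 + 1 := rfl
      rw [this, Nat.cast_add, h2, zero_add, Nat.cast_one]
    rw [h1]
    exact one_ne_zero
  exact HasEnoughRootsOfUnity.exists_primitiveRoot KK 3

/-- every character comes from the torus -/
theorem exists_tor {φ : (Fin 7 → ℤ) → KK} (hφ : IsMC φ) : ∃ t ∈ TY, ∀ x, cX hp7 t x = φ x :=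
  exists_cX hp7 invC_E7 two_ne_zero hφ fun i => IsAlgClosed.exists_pow_nat_eq _ (by norm_num)

/-- the elements of `A7` -/
theorem exists_A7 {ζ : KK} (hζ : ζ ^ 3 = 1) (f : (Fin 7 → ℤ) →+ ℤ) :
    ∃ t ∈ A7, ∀ x, cX hp7 t x = ζ ^ f x := by
  have h0 : ζ ≠ 0 := by
    rintro rfl
    simp at hζ
  have hφ : IsMC (fun x => ζ ^ f x) := ⟨by rw [map_zero, zpow_zero], fun x y => by rw [map_add, zpow_add₀ h0]⟩
  obtain ⟨t, ht, h1⟩ := exists_tor hφ
  refine ⟨t, ⟨ht, fun x => ?_⟩, h1⟩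
  rw [h1, ← zpow_natCast, ← zpow_mul, mul_comm, zpow_mul, zpow_natCast, hζ, one_zpow]

theorem card_A7 : Nat.card ↥A7 = 3 ^ 7 := by
  obtain ⟨ζ, hζ⟩ := exists_zeta
  have h3 : Nat.card ↥(rootsOfUnity 3 KK) = 3 := hζ.card_rootsOfUnity
  have hne : ∀ (t : ↥A7) (x : Fin 7 → ℤ), cX hp7 (t : Y7) x ≠ 0 := fun t x => (isMC_cX hp7 t.2.1).ne_zero x
  have e : ↥A7 ≃ (Fin 7 → ↥(rootsOfUnity 3 KK)) := by
    refine Equiv.ofBijective (fun t i => ⟨Units.mk0 (cX hp7 (t : Y7) (sr i)) (hne t _), ?_⟩) ⟨?_, ?_⟩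
    · rw [mem_rootsOfUnity]
      apply Units.ext
      rw [Units.val_pow_eq_pow_val, Units.val_mk0, t.2.2, Units.val_one]
    · intro s t hst
      apply Subtype.ext
      refine cX_inj hp7 s.2.1 t.2.1 fun i => ?_
      have h1 := congrFun hst i
      have h2 := congrArg (fun u : ↥(rootsOfUnity 3 KK) => ((u : KKˣ) : KK)) h1
      exact h2
    · intro c
      have hc3 : ∀ i, ((c i : KKˣ) : KK) ^ 3 = 1 := by
        intro i
        have := (mem_rootsOfUnity _ _).1 (c i).2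
        rw [← Units.val_pow_eq_pow_val, this, Units.val_one]
      obtain ⟨t, ht, h1⟩ := exists_tor (IsMC.of_prod (fun i => ((c i : KKˣ) : KK)) fun i => Units.ne_zero _)
      have h2 : ∀ i, cX hp7 t (sr i) = ((c i : KKˣ) : KK) := by
        intro i
        rw [h1]
        rw [Finset.prod_eq_single i]
        · simp [sr]
        · intro j _ hj
          simp [sr, Pi.single_eq_of_ne hj]
        · intro h
          exact absurd (Finset.mem_univ i) h
      have htA : t ∈ A7 := by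
        refine ⟨ht, fun x => ?_⟩
        rw [h1, ← Finset.prod_pow]
        refine Finset.prod_eq_one fun i _ => ?_
        rw [← zpow_natCast, ← zpow_mul, mul_comm, zpow_mul, zpow_natCast, hc3, one_zpow]
      refine ⟨⟨t, htA⟩, ?_⟩
      funext i
      apply Subtype.ext
      apply Units.ext
      rw [Units.val_mk0]
      exact h2 i
  rw [Nat.card_congr e, Nat.card_fun, h3]
  simp

/-! ### the Weyl group -/

theorem n7_liftable : CoxeterMatrix.E₇.IsLiftable n7 := by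
  intro i j
  have h1 := R7.nsys.rel i j
  rw [T7_bot, Subgroup.mem_bot] at h1
  exact h1

/-- the embedding of `E₇(2)` -/
noncomputable def em : G7 →* Y7 := emb hp7.inList (algebraMap (ZMod 2) KK)

theorem em_injective : Function.Injective em := emb_injective hp7.inList _

/-- the embedding of the Weyl group -/
noncomputable def nu : W7 →* Y7 := em.comp (cs7.lift ⟨n7, n7_liftable⟩)

theorem nu_simple (i : Fin 7) : nu (cs7.simple i) = nc hp7 KK i := by
  show em (cs7.lift ⟨n7, n7_liftable⟩ (cs7.simple i)) = _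
  rw [cs7.lift_apply_simple n7_liftable i]
  exact emb_nc hp7 _ i

theorem nsK : NSys CoxeterMatrix.E₇ TY (nc hp7 KK) := nsys_of_locFin hp7 cs7 hLF 2

theorem rp_nu (w : W7) : Rp cs7 nsK w (nu w) := by
  obtain ⟨ω, rfl⟩ := cs7.wordProd_surjective w
  induction ω with
  | nil => rw [CoxeterSystem.wordProd_nil, map_one]; exact rp_one
  | cons i ω ih =>
    rw [CoxeterSystem.wordProd_cons, map_mul, nu_simple]
    exact (rp_simple cs7 nsK i).mul ih

theorem cX_nu (w : W7) {t : Y7} (ht : t ∈ TY) (x : Fin 7 → ℤ) :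
    cX hp7 (nu w * t * (nu w)⁻¹) (rep cs7 h7 w x) = cX hp7 t x :=
  cX_rp hp7 cs7 hLF 2 (rp_nu w) ht x

theorem cX_nu' (w : W7) {t : Y7} (ht : t ∈ TY) (x : Fin 7 → ℤ) :
    cX hp7 (nu w * t * (nu w)⁻¹) x = cX hp7 t (rep cs7 h7 w⁻¹ x) := by
  rw [← cX_nu w ht, ← rep_mul_apply, mul_inv_cancel, map_one, Module.End.one_apply]

theorem nu_TY (w : W7) {t : Y7} (ht : t ∈ TY) : nu w * t * (nu w)⁻¹ ∈ TY :=
  (Subgroup.mem_normalizer_iff.1 (rp_nu w).mem_normalizer t).1 ht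

theorem nu_A7 (w : W7) {t : Y7} (ht : t ∈ A7) : nu w * t * (nu w)⁻¹ ∈ A7 :=
  ⟨nu_TY w ht.1, fun x => by rw [cX_nu' w ht.1]; exact ht.2 _⟩

/-- roots are determined modulo 3 -/
theorem roots_mod : ∀ r ∈ List.range 126, ∀ s ∈ List.range 126,
    (∀ i : Fin 7, (vec chevE7 7 r i - vec chevE7 7 s i) % 3 = 0) → r = s := by decide +kernel

theorem roots_ne : ∀ r ∈ List.range 126, ∃ i : Fin 7, vec chevE7 7 r i % 3 ≠ 0 := by decide +kernel

theorem exists_vec {a : Fin 7 → ℤ} (ha : IsRoot cs7 h7 a) : ∃ r ∈ List.range 126, a = vec chevE7 7 r := by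
  obtain ⟨r, hr, rfl⟩ := (isRoot_iff hp7 cs7 a).1 ha
  exact ⟨r, List.mem_range.2 hr, rfl⟩

/-- the coordinate functions -/
def co (i : Fin 7) : (Fin 7 → ℤ) →+ ℤ := Pi.evalAddMonoidHom (fun _ => ℤ) i

theorem co_apply (i : Fin 7) (x : Fin 7 → ℤ) : co i x = x i := rfl

theorem zpow_eq_iff {ζ : KK} (hζ : IsPrimitiveRoot ζ 3) (a b : ℤ) : ζ ^ a = ζ ^ b ↔ (a - b) % 3 = 0 := by
  have h0 : ζ ≠ 0 := hζ.ne_zero (by norm_num)
  rw [← sub_eq_zero (a := ζ ^ a), ← Int.dvd_iff_emod_eq_zero]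
  have h1 := hζ.zpow_eq_one_iff_dvd (a - b)
  rw [zpow_sub₀ h0, div_eq_one_iff_eq (zpow_ne_zero _ h0)] at h1
  rw [sub_eq_zero]
  exact h1

theorem exists_ne {a : Fin 7 → ℤ} (ha : IsRoot cs7 h7 a) : ∃ t ∈ A7, cX hp7 t a ≠ 1 := by
  obtain ⟨r, hr, rfl⟩ := exists_vec ha
  obtain ⟨i, hi⟩ := roots_ne r hr
  obtain ⟨ζ, hζ⟩ := exists_zeta
  obtain ⟨t, ht, h1⟩ := exists_A7 hζ.pow_eq_one (co i)
  refine ⟨t, ht, ?_⟩
  rw [h1, co_apply]
  intro h2
  apply hi
  have h3 := (zpow_eq_iff hζ (vec chevE7 7 r i) 0).1 (by rw [h2, zpow_zero])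
  simpa using h3

theorem eq_one_of_cX {w : W7} (hw : ∀ t ∈ A7, ∀ a, IsRoot cs7 h7 a → cX hp7 t (rep cs7 h7 w a) = cX hp7 t a) :
    w = 1 := by
  obtain ⟨ζ, hζ⟩ := exists_zeta
  have h1 : ∀ a, IsRoot cs7 h7 a → rep cs7 h7 w a = a := by
    intro a ha
    obtain ⟨r, hr, h2⟩ := exists_vec (ha.act w)
    obtain ⟨s, hs, h3⟩ := exists_vec ha
    have h4 : r = s := by
      refine roots_mod r hr s hs fun i => ?_
      obtain ⟨t, ht, h5⟩ := exists_A7 hζ.pow_eq_one (co i)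
      have h6 := hw t ht a ha
      rw [h5, h5, zpow_eq_iff hζ, co_apply, co_apply, h2, h3] at h6
      exact h6
    rw [h2, h4, ← h3]
  apply rep_injective cs7 h7
  apply LinearMap.ext
  intro x
  rw [map_one, Module.End.one_apply]
  conv_lhs => rw [Cfsg.Agent.H154.PQE.sum_sr x]
  conv_rhs => rw [Cfsg.Agent.H154.PQE.sum_sr x]
  rw [map_sum]
  refine Finset.sum_congr rfl fun k _ => ?_
  rw [map_smul, h1 _ (isRoot_sr cs7 h7 k)]

/-- **`C(A) ≤ T`** -/
theorem centralizer_A7 : Subgroup.centralizer (A7 : Set Y7) ≤ TY := by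
  intro c hc
  have hfin : (A7 : Set Y7).Finite := by
    have : Finite ↥A7 := Nat.finite_of_card_ne_zero (by rw [card_A7]; norm_num)
    exact Set.toFinite _
  exact TorA.mem_TT_of_centralizer hp7 cs7 hLF 2 hfin A7_le (fun a ha => exists_ne ha)
    (fun w hw => eq_one_of_cX hw) hc

theorem TY_le_centralizer : TY ≤ Subgroup.centralizer (A7 : Set Y7) := by
  intro c hc
  rw [Subgroup.mem_centralizer_iff]
  intro t ht
  exact TT_comm hp7 t ht.1 c hc

theorem nu_mem_TY {w : W7} (h : nu w ∈ TY) : w = 1 := by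
  refine eq_one_of_cX fun t ht a ha => ?_
  have h1 := cX_nu w ht.1 a
  have h2 : nu w * t * (nu w)⁻¹ = t := by
    rw [TT_comm hp7 _ h t ht.1]; group
  rwa [h2] at h1

theorem nu_injective : Function.Injective nu := by
  rw [← MonoidHom.ker_eq_bot_iff, eq_bot_iff]
  intro w hw
  rw [Subgroup.mem_bot]
  apply nu_mem_TY
  rw [MonoidHom.mem_ker.1 hw]
  exact one_mem _

/-! ### the twisted Frobenius map -/

/-- the Frobenius map -/
noncomputable def ph : MulAut Y7 := phi chevE7 KK 2 1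

theorem ph_em (x : G7) : ph (em x) = em x :=
  phi_emb hp7 (algebraMap (ZMod 2) KK) (by rw [ZMod.card, pow_one]) x

theorem ph_nu (w : W7) : ph (nu w) = nu w := ph_em _

/-- the twisted Frobenius map -/
noncomputable def tau : Y7 →* Y7 := ((MulAut.conj (nu w0)) * ph).toMonoidHom

theorem tau_apply (y : Y7) : tau y = nu w0 * ph y * (nu w0)⁻¹ := rfl

/-- its fixed points -/
noncomputable def PT : Subgroup Y7 := tau.eqLocus (MonoidHom.id _)

theorem mem_PT {y : Y7} : y ∈ PT ↔ tau y = y := Iff.rfl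

theorem nu_mem_PT (w : W7) : nu w ∈ PT := by
  rw [mem_PT, tau_apply, ph_nu, ← map_inv, ← map_mul, ← map_mul, w0_comm, mul_assoc, mul_inv_cancel, mul_one]

theorem tau_TY {t : Y7} (ht : t ∈ TY) : tau t = t ↔ ∀ x, cX hp7 t x ^ 3 = 1 := by
  have h1 := tau_iff hp7 cs7 (g := AddEquiv.refl (Fin 7 → ℤ)) hLF (isFrob_phi (k := KK) (D := chevE7) (p := 2) (e := 1))
    (fr_phi hp7 cs7) (rp_nu w0) ht
  rw [tau_apply]
  refine h1.trans ?_
  have h2 : ∀ x, theta hp7 cs7 w0 (AddEquiv.refl (Fin 7 → ℤ)) x = -x := fun x => rep_w0 x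
  have hM := isMC_cX hp7 ht
  constructor
  · intro h x
    have h3 := h x
    rw [h2, hM.neg] at h3
    have h4 := hM.ne_zero x
    have h5 : cX hp7 t x ^ 3 = cX hp7 t x ^ 2 ^ 1 * cX hp7 t x := pow_succ _ 2
    rw [h5, ← h3, inv_mul_cancel₀ h4]
  · intro h x
    have h3 := h x
    rw [h2, hM.neg]
    have h4 := hM.ne_zero x
    have h5 : cX hp7 t x ^ 3 = cX hp7 t x ^ 2 ^ 1 * cX hp7 t x := pow_succ _ 2
    rw [h5] at h3
    exact (eq_inv_of_mul_eq_one_left h3).symm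

theorem A7_le_PT : A7 ≤ PT := fun _ ht => (tau_TY ht.1).2 ht.2

theorem mem_A7_of {t : Y7} (ht : t ∈ TY) (h : t ∈ PT) : t ∈ A7 := ⟨ht, (tau_TY ht).1 h⟩

/-- **`C(A) = A` in the group of the fixed points** -/
theorem centralizer_inf : Subgroup.centralizer (A7 : Set Y7) ⊓ PT = A7 := by
  apply le_antisymm
  · rintro c ⟨h1, h2⟩
    exact mem_A7_of (centralizer_A7 h1) h2
  · exact le_inf (A7_le.trans TY_le_centralizer) A7_le_PT

end Cfsg.Agent.R2.H27.TorB
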