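import Cfsg.Agent.R2.H27.TorC
import Cfsg.Agent.R2.H27.ClsC

/-!
# S5934, box T11: `3^7 : Sp₆(2)` (helper27)
-/

set_option autoImplicit false
set_option linter.unusedSectionVars false
set_option maxRecDepth 100000

namespace Cfsg.Agent.R2.H27.TorD

open Cfsg.Agent.R2.H27.Asm
open Subgroup
open scoped commutatorElement Pointwise

section Gen

variable {G : Type*} [Group G]

theorem mem_sup_norm {A K : Subgroup G} (hn : K ≤ normalizer (A : Set G)) {g : G} (hg : g ∈ A ⊔ K) :
    ∃ a ∈ A, ∃ k ∈ K, g = a * k := by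
  have hg' : g ∈ ((A ⊔ K : Subgroup G) : Set G) := hg
  rw [Subgroup.coe_mul_of_right_le_normalizer_left _ _ hn, Set.mem_mul] at hg'
  obtain ⟨x, hx, y, hy, rfl⟩ := hg'
  exact ⟨x, hx, y, hy, rfl⟩

theorem card_sup_norm {A K : Subgroup G} (hn : K ≤ normalizer (A : Set G)) (hd : A ⊓ K = ⊥) :
    Nat.card ↥(A ⊔ K : Subgroup G) = Nat.card ↥A * Nat.card ↥K := by
  refine (Nat.card_congr (Equiv.ofBijective (fun p : ↥A × ↥K => (⟨p.1.1 * p.2.1,
    mul_mem (le_sup_left (a := A) p.1.2) (le_sup_right (a := A) p.2.2)⟩ : ↥(A ⊔ K : Subgroup G))) ⟨?_, ?_⟩)).symm.trans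
    (Nat.card_prod _ _)
  · rintro ⟨a, b⟩ ⟨c, d⟩ he
    have he' : (a : G) * b = c * d := congrArg Subtype.val he
    have h4 : (c : G)⁻¹ * a = d * (b : G)⁻¹ := by
      rw [inv_mul_eq_iff_eq_mul, ← mul_assoc, ← he', mul_assoc, mul_inv_cancel, mul_one]
    have h5 : (c : G)⁻¹ * a ∈ A ⊓ K := by
      refine ⟨A.mul_mem (A.inv_mem c.2) a.2, ?_⟩
      rw [h4]
      exact K.mul_mem d.2 (K.inv_mem b.2)
    rw [hd, mem_bot] at h5
    have h6 : (a : G) = c := by rw [← mul_one (c : G), ← h5]; group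
    have h7 : (b : G) = d := by
      rw [h6] at he'
      exact mul_left_cancel he'
    exact Prod.ext (Subtype.ext h6) (Subtype.ext h7)
  · rintro ⟨g, hg⟩
    obtain ⟨x, hx, y, hy, rfl⟩ := mem_sup_norm hn hg
    exact ⟨(⟨x, hx⟩, ⟨y, hy⟩), rfl⟩

/-- the content of box T11 -/
structure IsT11 (A N₀ : Subgroup G) : Prop where
  cardA : Nat.card ↥A = 3 ^ 7
  le : A ≤ N₀
  norm : N₀ ≤ normalizer (A : Set G)
  perf : ⁅N₀, N₀⁆ = N₀
  card : Nat.card ↥N₀ = 3 ^ 7 * oS6
  irr : ∀ B : Subgroup G, B ≤ A → N₀ ≤ normalizer (B : Set G) → B = ⊥ ∨ B = A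
  cent : centralizer (A : Set G) = A
  sim : ∀ B : Subgroup G, A ≤ B → B ≤ N₀ → N₀ ≤ normalizer (B : Set G) → B = A ∨ B = N₀

theorem IsT11.map {A N₀ : Subgroup G} (h : IsT11 A N₀) {H : Type*} [Group H] (e : G ≃* H) :
    IsT11 (A.map e.toMonoidHom) (N₀.map e.toMonoidHom) := by
  have hmm : ∀ B : Subgroup H, (B.map e.symm.toMonoidHom).map e.toMonoidHom = B := by
    intro B
    rw [Subgroup.map_map]
    have : e.toMonoidHom.comp e.symm.toMonoidHom = MonoidHom.id H := by
      ext x; simp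
    rw [this, Subgroup.map_id]
  have hmm' : ∀ B : Subgroup G, (B.map e.toMonoidHom).map e.symm.toMonoidHom = B := by
    intro B
    rw [Subgroup.map_map]
    have : e.symm.toMonoidHom.comp e.toMonoidHom = MonoidHom.id G := by
      ext x; simp
    rw [this, Subgroup.map_id]
  have hnorm : ∀ {B : Subgroup H}, N₀.map e.toMonoidHom ≤ normalizer (B : Set H) →
      N₀ ≤ normalizer ((B.map e.symm.toMonoidHom : Subgroup G) : Set G) := by
    intro B hB
    have h1 := map_le_normalizer e.symm.toMonoidHom hB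
    rwa [hmm'] at h1
  refine ⟨?_, Subgroup.map_mono h.le, map_le_normalizer _ h.norm, ?_, ?_, ?_, ?_, ?_⟩
  · rw [← h.cardA]
    exact (Nat.card_congr (A.equivMapOfInjective _ e.injective).toEquiv).symm
  · rw [← Subgroup.map_commutator, h.perf]
  · rw [← h.card]
    exact (Nat.card_congr (N₀.equivMapOfInjective _ e.injective).toEquiv).symm
  · intro B hB hn
    have h1 : B.map e.symm.toMonoidHom ≤ A := by
      have := Subgroup.map_mono (f := e.symm.toMonoidHom) hB
      rwa [hmm'] at this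
    rcases h.irr _ h1 (hnorm hn) with h2 | h2
    · left
      rw [← hmm B, h2, Subgroup.map_bot]
    · right
      rw [← hmm B, h2]
  · apply le_antisymm
    · intro x hx
      refine ⟨e.symm x, ?_, by simp⟩
      rw [SetLike.mem_coe, ← h.cent, mem_centralizer_iff]
      intro a ha
      apply e.injective
      have h1 := mem_centralizer_iff.1 hx (e a) ⟨a, ha, rfl⟩
      rw [map_mul, map_mul, e.apply_symm_apply]
      exact h1
    · have h1 : A ≤ centralizer (A : Set G) := h.cent.ge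
      exact map_le_centralizer _ h1
  · intro B hAB hBN hn
    have h1 : A ≤ B.map e.symm.toMonoidHom := by
      have := Subgroup.map_mono (f := e.symm.toMonoidHom) hAB
      rwa [hmm'] at this
    have h3 : B.map e.symm.toMonoidHom ≤ N₀ := by
      have := Subgroup.map_mono (f := e.symm.toMonoidHom) hBN
      rwa [hmm'] at this
    rcases h.sim _ h1 h3 (hnorm hn) with h2 | h2
    · left
      rw [← hmm B, h2]
    · right
      rw [← hmm B, h2]

theorem exists_congr_sub {G H : Type*} [Group G] [Group H] {P : Subgroup G} {Q : Subgroup H}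
    (e : Nonempty (↥P ≃* ↥Q)) (h : ∃ A N₀ : Subgroup ↥P, IsT11 A N₀) : ∃ A N₀ : Subgroup ↥Q, IsT11 A N₀ := by
  obtain ⟨e⟩ := e
  obtain ⟨A, N₀, h⟩ := h
  exact ⟨_, _, h.map e⟩

/-- the conditions on a split extension -/
theorem isT11_of {P A K : Subgroup G} (hAP : A ≤ P) (hKP : K ≤ P) (hKA : K ≤ normalizer (A : Set G))
    (hA : Nat.card ↥A = 3 ^ 7) (hKc : Nat.card ↥K = oS6) (hK : IsSimpleGroup ↥K)
    (hirr : ∀ B : Subgroup G, B ≤ A → K ≤ normalizer (B : Set G) → B = ⊥ ∨ B = A)
    (hC : centralizer (A : Set G) ⊓ P = A) (hCK : centralizer (A : Set G) ⊓ K = ⊥) :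
    IsT11 (A.subgroupOf P) ((A ⊔ K : Subgroup G).subgroupOf P) := by
  have hACA : A ≤ centralizer (A : Set G) := by
    intro a ha
    rw [← hC] at ha
    exact ha.1
  have hd : A ⊓ K = ⊥ := by
    rw [eq_bot_iff, ← hCK]
    exact inf_le_inf_right _ hACA
  have hNP : A ⊔ K ≤ P := sup_le hAP hKP
  have hfin : Finite ↥K := Nat.finite_of_card_ne_zero (by rw [hKc]; decide +kernel)
  have hK1 : K ≠ ⊥ := by
    rintro rfl
    rw [Subgroup.card_bot] at hKc
    revert hKc
    decide +kernel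
  have hKnc : ¬ ∀ x y : ↥K, x * y = y * x := not_comm_of_card hK (a := 3) (b := 5) (by norm_num) (by norm_num)
    (by norm_num) (by rw [hKc]; decide +kernel) (by rw [hKc]; decide +kernel)
  have hKp : ⁅K, K⁆ = K := by
    have h1 : commutator ↥K = ⊤ := by
      rcases (inferInstance : (commutator ↥K).Normal).eq_bot_or_eq_top with h | h
      · exfalso
        apply hKnc
        intro x y
        have h2 : ⁅x, y⁆ ∈ commutator ↥K := Subgroup.commutator_mem_commutator (mem_top _) (mem_top _)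
        rw [h, mem_bot, commutatorElement_eq_one_iff_mul_comm] at h2
        exact h2
      · exact h
    have h2 := congrArg (Subgroup.map K.subtype) h1
    rw [commutator_def, Subgroup.map_commutator, ← MonoidHom.range_eq_map, Subgroup.range_subtype] at h2
    exact h2
  have hNn : A ⊔ K ≤ normalizer (A : Set G) := sup_le Subgroup.le_normalizer hKA
  refine ⟨by rw [card_subgroupOf hAP, hA], fun x hx => le_sup_left (a := A) hx,
    le_normalizer_subgroupOf hNn, ?_, ?_, ?_, ?_, ?_⟩
  · apply perfect_subgroupOf hNP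
    -- perfect
    apply le_antisymm
    · rw [Subgroup.commutator_le]
      intro a ha b hb
      rw [commutatorElement_def]
      exact mul_mem (mul_mem (mul_mem ha hb) (inv_mem ha)) (inv_mem hb)
    · have h1 : K ≤ ⁅A ⊔ K, A ⊔ K⁆ := by
        conv_lhs => rw [← hKp]
        exact Subgroup.commutator_mono le_sup_right le_sup_right
      have h2 : K ≤ normalizer ((⁅A ⊔ K, A ⊔ K⁆ ⊓ A : Subgroup G) : Set G) := by
        intro k hk
        have hkey : ∀ k ∈ K, ∀ x ∈ (⁅A ⊔ K, A ⊔ K⁆ ⊓ A : Subgroup G), k * x * k⁻¹ ∈ (⁅A ⊔ K, A ⊔ K⁆ ⊓ A : Subgroup G) := by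
          rintro k hk x ⟨hx1, hx2⟩
          refine ⟨(⁅A ⊔ K, A ⊔ K⁆).mul_mem ((⁅A ⊔ K, A ⊔ K⁆).mul_mem (h1 hk) hx1)
            ((⁅A ⊔ K, A ⊔ K⁆).inv_mem (h1 hk)), ?_⟩
          exact ((Subgroup.mem_normalizer_iff.1 (hKA hk)) x).1 hx2
        rw [Subgroup.mem_normalizer_iff]
        intro x
        constructor
        · exact hkey k hk x
        · intro hx
          have := hkey k⁻¹ (inv_mem hk) _ hx
          have e1 : k⁻¹ * (k * x * k⁻¹) * k⁻¹⁻¹ = x := by group
          rwa [e1] at this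
      rcases hirr _ inf_le_right h2 with h3 | h3
      · exfalso
        apply hK1
        rw [eq_bot_iff, ← hCK]
        refine le_inf ?_ le_rfl
        intro k hk
        rw [mem_centralizer_iff]
        intro a ha
        have h4 : ⁅k, a⁆ ∈ ⁅A ⊔ K, A ⊔ K⁆ ⊓ A := by
          refine ⟨Subgroup.commutator_mem_commutator (le_sup_right (a := A) hk) (le_sup_left (a := A) ha), ?_⟩
          rw [commutatorElement_def]
          exact A.mul_mem (((Subgroup.mem_normalizer_iff.1 (hKA hk)) a).1 ha) (A.inv_mem ha)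
        rw [h3, mem_bot, commutatorElement_eq_one_iff_mul_comm] at h4
        exact h4.symm
      · exact sup_le (h3.ge.trans inf_le_left) h1
  · rw [card_subgroupOf hNP, card_sup_norm hKA hd, hA, hKc]
  · intro B hBA hB
    have h1 : B.map P.subtype ≤ A := by
      rintro _ ⟨x, hx, rfl⟩
      exact hBA hx
    have h2 := le_normalizer_map hNP hB
    rcases hirr _ h1 (le_sup_right.trans h2) with h3 | h3
    · left
      exact (Subgroup.map_eq_bot_iff_of_injective B P.subtype_injective).1 h3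
    · right
      exact eq_subgroupOf_of_map h3
  · rw [centralizer_subgroupOf hAP]
    ext x
    constructor
    · intro hx
      have h3 : (x : G) ∈ centralizer (A : Set G) ⊓ P := ⟨hx, x.2⟩
      rw [hC] at h3
      exact h3
    · intro hx
      exact hACA hx
  · intro B hAB hBN hB
    have h1 : B.map P.subtype ≤ A ⊔ K := by
      rintro _ ⟨x, hx, rfl⟩
      exact hBN hx
    have h2 : A ≤ B.map P.subtype := fun x hx => ⟨⟨x, hAP hx⟩, hAB hx, rfl⟩
    have h3 := le_normalizer_map hNP hB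
    have hsim : ∀ C : Subgroup G, A ≤ C → C ≤ A ⊔ K → A ⊔ K ≤ normalizer (C : Set G) → C = A ∨ C = A ⊔ K := by
      intro C hAC hCN hCn
      have h4 : C = A ⊔ (C ⊓ K) := by
        apply le_antisymm
        · intro c hc
          obtain ⟨a, ha, k, hk, rfl⟩ := mem_sup_norm hKA (hCN hc)
          have h5 : k ∈ C := by
            have := C.mul_mem (C.inv_mem (hAC ha)) hc
            rwa [inv_mul_cancel_left] at this
          exact mul_mem (le_sup_left (a := A) ha) (le_sup_right (a := A) ⟨h5, hk⟩)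
        · exact sup_le hAC inf_le_left
      have h5 : ((C ⊓ K).subgroupOf K).Normal := by
        refine ⟨fun x hx g => ?_⟩
        refine ⟨?_, (g * x * g⁻¹).2⟩
        have h6 := (Subgroup.mem_normalizer_iff.1 (hCn (le_sup_right (a := A) g.2))) (x : G)
        exact h6.1 hx.1
      rcases h5.eq_bot_or_eq_top with h6 | h6
      · left
        rw [Subgroup.subgroupOf_eq_bot] at h6
        have h7 : C ⊓ K = ⊥ := by
          have := h6.eq_bot
          rwa [inf_assoc, inf_idem] at this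
        rw [h4, h7, sup_bot_eq]
      · right
        rw [Subgroup.subgroupOf_eq_top] at h6
        apply le_antisymm hCN
        exact sup_le hAC (h6.trans inf_le_left)
    rcases hsim _ h2 h1 h3 with h4 | h4
    · left
      exact eq_subgroupOf_of_map h4
    · right
      exact eq_subgroupOf_of_map h4

end Gen

/-! ### `E₇(2)` -/

open Cfsg.Lie Cfsg.Agent.R2.H27.TorB Cfsg.Agent.R2.H27.TorC Cfsg.Agent.R2.H27.WeylE7

theorem PT_map : PT.map (chevE7.group KK).subtype =
    Cfsg.Agent.H420.PG.PF chevE7 (iterateFrobenius KK 2 1) (nu w0 : GL chevE7.Idx KK) := by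
  ext g
  constructor
  · rintro ⟨y, hy, rfl⟩
    refine ⟨y.2, ?_⟩
    have h1 : tau y = y := hy
    have h2 := congrArg Subtype.val h1
    exact h2
  · rintro ⟨hg, h1⟩
    refine ⟨⟨g, hg⟩, ?_, rfl⟩
    exact Subtype.ext h1

theorem isoPT : Nonempty (↥PT ≃* G7) := by
  have h1 : Nonempty (↥(Cfsg.Agent.H420.PG.PF chevE7 (iterateFrobenius KK 2 1) (nu w0 : GL chevE7.Idx KK)) ≃*
    ↥(chevE7.group (ZMod 2))) := Cfsg.Agent.R2.E72T.iso7 (nu w0).2
  obtain ⟨e⟩ := h1
  have e2 := PT.equivMapOfInjective (chevE7.group KK).subtype (chevE7.group KK).subtype_injective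
  rw [PT_map] at e2
  exact ⟨e2.trans e⟩

theorem isT11_PT : IsT11 (A7.subgroupOf PT) (N0.subgroupOf PT) := by
  refine isT11_of (P := PT) (A := A7) (K := KW) A7_le_PT ?_ ?_ card_A7 ?_ ?_ (fun B hB hn => irr hB hn)
    centralizer_inf ?_
  · rintro _ ⟨w, hw, rfl⟩
    exact nu_mem_PT w
  · rintro _ ⟨w, hw, rfl⟩
    have hkey : ∀ w : W7, ∀ x ∈ A7, nu w * x * (nu w)⁻¹ ∈ A7 := fun w x hx => nu_A7 w hx
    show nu w ∈ _
    rw [Subgroup.mem_normalizer_iff]
    intro x
    constructor
    · exact hkey w x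
    · intro hx
      have := hkey w⁻¹ _ hx
      rw [map_inv] at this
      have e1 : (nu w)⁻¹ * (nu w * x * (nu w)⁻¹) * (nu w)⁻¹⁻¹ = x := by group
      rwa [e1] at this
  · rw [KW, ← (Nat.card_congr (Wp.equivMapOfInjective _ nu_injective).toEquiv), card_Wp]
    decide +kernel
  · exact simple_congr (Wp.equivMapOfInjective _ nu_injective) simple_Wp
  · rw [eq_bot_iff]
    rintro _ ⟨h1, w, hw, rfl⟩
    have h2 := nu_mem_TY (centralizer_A7 h1)
    rw [Subgroup.mem_bot]
    show nu w = 1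
    rw [h2, map_one]

theorem exists_isT11 : ∃ A N₀ : Subgroup G7, IsT11 A N₀ := by
  exact exists_congr_sub (Q := chevE7.group (ZMod 2)) isoPT ⟨_, _, isT11_PT⟩

/-- **Box T11** -/
theorem box_T11 : BoxT11 := by
  obtain ⟨A, N₀, h⟩ := exists_isT11
  exact ⟨A, N₀, h.cardA, h.le, h.norm, h.perf, h.card, h.irr, h.cent, h.sim⟩

end Cfsg.Agent.R2.H27.TorD
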