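import Cfsg.Agent.R2.H27.UsA
import Cfsg.Agent.R2.H27S.ESeven
import Cfsg.Agent.R2.H27.TorC

/-!
# Torus elements and reflections in the images of `SL₆(K)`, `SL₃(K)` (S5934, box T7; helper27)
-/

set_option autoImplicit false
set_option linter.unusedSectionVars false
set_option maxRecDepth 100000

namespace Cfsg.Agent.R2.H27.UsB

open CoxeterSystem Cfsg Cfsg.Lie Cfsg.Lie.ChevalleyDatum
open Cfsg.Agent.ChevalleyStructure Cfsg.Agent.ChevalleyStructure.Elts Cfsg.Agent.ChevalleyStructure.CoxeterGeom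
  Cfsg.Agent.ChevalleyStructure.CoxeterGeomTypes
open Cfsg.Agent.Tits.Roots Cfsg.Agent.Tits.Core Cfsg.Agent.Nodes Cfsg.Agent.Nodes.Reps Cfsg.Agent.Nodes.BNOf
  Cfsg.Agent.Nodes.RGDChev Cfsg.Agent.Nodes.Bruhat Cfsg.Agent.Nodes.SubComb Cfsg.Agent.Nodes.NormalForm
  Cfsg.Agent.Nodes.Coroot
open Cfsg.Agent.KFacts.RgdField Cfsg.Agent.KFacts.RgdChevCoord
open Cfsg.Agent.H129.TorusChar
open Cfsg.Agent.OddHalf.NI.ModelChev
open Cfsg.Agent.FixBN.FieldRGD (uu vv dd ww)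
open Cfsg.Agent.H904.E7Form
open Cfsg.Agent.R2.H27.Par Cfsg.Agent.R2.H27.WeylE7 Cfsg.Agent.R2.H27.UsA
open scoped MatrixGroups

/-- the roots as vectors -/
abbrev rv (r : ℕ) : Fin 7 → ℤ := vec chevE7 7 r

theorem isRoot_rv {r : ℕ} (hr : r < 126) : IsRoot cs7 h7 (rv r) := isRoot_vec hp7 cs7 (show r < chevE7.nroots from hr)

theorem rv_neg {r : ℕ} (hr : r < 126) : rv (chevE7.neg r) = -rv r := vec_neg hp7 (show r < chevE7.nroots from hr)

section K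

variable {K : Type} [Field K] [Fintype K] [CharP K 2]

theorem nu_xc (w : W7) {r : ℕ} (hr : r < 126) (t : K) :
    nu K w * xc hp7 (rv r) t * (nu K w)⁻¹ = xc hp7 (rep cs7 h7 w (rv r)) t := by
  obtain ⟨ω, rfl⟩ := cs7.wordProd_surjective w
  have h1 := Cfsg.Agent.H154.PQE.rep_word ω (show r < chevE7.nroots from hr)
  have h2 := (Cfsg.Agent.H420.PG.nwd_conj (F := K) hp7.inList (w := ω.map Fin.val) (by
    intro i hi
    obtain ⟨j, -, rfl⟩ := List.mem_map.1 hi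
    exact lt_rank hp7 j) (show r < chevE7.nroots from hr) t).1
  have h3 : rep cs7 h7 (cs7.wordProd ω) (rv r) = vec chevE7 7
    (ω.foldr (fun (i : Fin 7) r => chevE7.reflectRoot (i : ℕ) r) r) := h1.2
  rw [h3]
  apply Subtype.ext
  rw [Subgroup.coe_mul, Subgroup.coe_mul, Subgroup.coe_inv, coe_xc hp7 (show r < chevE7.nroots from hr),
    coe_xc hp7 h1.1, coe_nu_wordProd, h2, List.foldr_map]

theorem nu_xc' (w : W7) {a : Fin 7 → ℤ} (ha : IsRoot cs7 h7 a) (t : K) :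
    nu K w * xc hp7 a t * (nu K w)⁻¹ = xc hp7 (rep cs7 h7 w a) t := by
  obtain ⟨r, hr, rfl⟩ := (isRoot_iff hp7 cs7 a).1 ha
  exact nu_xc w hr t

/-- the product of root elements representing a reflection -/
noncomputable def nN (a : Fin 7 → ℤ) : Y K := xc hp7 a 1 * xc hp7 (-a) 1 * xc hp7 a 1

/-- the product of root elements representing a torus element -/
noncomputable def hH (a : Fin 7 → ℤ) (c : K) : Y K := xc hp7 a c * xc hp7 (-a) c⁻¹ * xc hp7 a c * nN a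

theorem sl_nN (i : Fin 7) : sl hp7 (K := K) i (ww 1 one_ne_zero) = nN (sr i) := by
  have h1 : (ww 1 one_ne_zero : SL(2, K)) = uu 1 * vv 1 * uu 1 := by
    apply Subtype.ext
    show !![0, 1; -(1 : K)⁻¹, 0] = !![1, 1; 0, 1] * !![1, 0; 1, 1] * !![1, 1; 0, 1]
    have h2 : (1 : K) + 1 = 0 := CharTwo.add_self_eq_zero 1
    rw [Matrix.mul_fin_two, Matrix.mul_fin_two, inv_one, CharTwo.neg_eq]
    ext a b
    fin_cases a <;> fin_cases b <;> simp [h2]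
  rw [h1, map_mul, map_mul, sl_uu, sl_vv]
  rfl

theorem sl_hH (i : Fin 7) {c : K} (hc0 : c ≠ 0) : sl hp7 (K := K) i (dd c hc0) = hH (sr i) c := by
  have h1 : (dd c hc0 : SL(2, K)) = uu c * vv c⁻¹ * uu c * ww 1 one_ne_zero := by
    apply Subtype.ext
    show !![c, 0; 0, c⁻¹] = !![1, c; 0, 1] * !![1, 0; c⁻¹, 1] * !![1, c; 0, 1] * !![0, 1; -(1 : K)⁻¹, 0]
    have h2 : (1 : K) + 1 = 0 := CharTwo.add_self_eq_zero 1
    have h3 : c * c⁻¹ = 1 := mul_inv_cancel₀ hc0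
    have h4 : c⁻¹ * c = 1 := inv_mul_cancel₀ hc0
    rw [Matrix.mul_fin_two, Matrix.mul_fin_two, Matrix.mul_fin_two, inv_one, CharTwo.neg_eq]
    ext a b
    fin_cases a <;> fin_cases b <;> simp [h2, h3, h4]
  rw [h1, map_mul, map_mul, map_mul, sl_uu, sl_vv, sl_nN]
  rfl

theorem nu_nN (w : W7) {a : Fin 7 → ℤ} (ha : IsRoot cs7 h7 a) : nu K w * nN a * (nu K w)⁻¹ = nN (rep cs7 h7 w a) := by
  unfold nN
  rw [← nu_xc' w ha, ← map_neg (rep cs7 h7 w) a, ← nu_xc' w ha.neg]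
  group

theorem nu_hH (w : W7) {a : Fin 7 → ℤ} (ha : IsRoot cs7 h7 a) (c : K) :
    nu K w * hH a c * (nu K w)⁻¹ = hH (rep cs7 h7 w a) c := by
  unfold hH
  rw [← nu_nN w ha, ← nu_xc' w ha, ← map_neg (rep cs7 h7 w) a, ← nu_xc' w ha.neg]
  group

theorem pairing_eq_bf (i : Fin 7) (x : Fin 7 → ℤ) : pairing (cartanOf chevE7 7) i x = bf x (sr i) := by
  have h1 := Cfsg.Agent.R2.H27S.ESeven.cpr_eq x (isRoot_sr cs7 h7 i)
  rw [← h1]
  have h2 := cpr_rep_sr cs7 h7 x 1 i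
  rw [map_one, Module.End.one_apply, inv_one, map_one, Module.End.one_apply] at h2
  exact h2.symm

theorem cX_hc (i : Fin 7) {c : K} (hc0 : c ≠ 0) (x : Fin 7 → ℤ) :
    cX hp7 (hc hp7 i c) x = c ^ bf x (sr i) := by
  have hφ : IsMC (fun x => c ^ bf x (sr i)) := by
    refine ⟨?_, fun x y => ?_⟩
    · have : bf 0 (sr i) = 0 := by
        rw [← pairing_eq_bf]; simpa using pairing_smul (cartanOf chevE7 7) i 0 0
      show c ^ bf 0 (sr i) = 1
      rw [this, zpow_zero]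
    · show c ^ bf (x + y) (sr i) = c ^ bf x (sr i) * c ^ bf y (sr i)
      rw [← zpow_add₀ hc0, ← pairing_eq_bf, ← pairing_eq_bf, ← pairing_eq_bf, pairing_add]
  refine (isMC_cX hp7 (hc_mem hp7 i hc0)).ext hφ (fun j => ?_) x
  rw [cX_sr, ← vec_simple hp7 j, ch_hc hp7 i hc0 (NPerm.simple_lt hp7.inList (lt_rank hp7 j)), ← cartanOf_def chevE7 7 i j,
    vec_simple hp7 j, ← pairing_eq_bf, pairing, sr]
  rw [Finset.sum_eq_single j]
  · rw [Pi.single_eq_same, mul_one]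
  · intro k _ hk
    rw [Pi.single_eq_of_ne hk, mul_zero]
  · intro h
    exact absurd (Finset.mem_univ j) h

/-- **The torus element of a root.** -/
theorem hH_spec {a : Fin 7 → ℤ} (ha : IsRoot cs7 h7 a) {c : K} (hc0 : c ≠ 0) :
    hH a c ∈ T K ∧ ∀ x, cX hp7 (hH a c) x = c ^ bf x a := by
  obtain ⟨w, i, rfl⟩ := ha
  have hi := hc_mem hp7 (K := K) i hc0
  have h1 : hH (rep cs7 h7 w (sr i)) c = nu K w * hc hp7 i c * (nu K w)⁻¹ := by
    rw [← nu_hH w (isRoot_sr cs7 h7 i), ← sl_hH i hc0, sl_dd]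
  rw [h1]
  refine ⟨nu_T w hi, fun x => ?_⟩
  rw [cX_nu' w hi, cX_hc i hc0]
  congr 1
  have h2 := Cfsg.Agent.H904.E7Main.bf_rep cs7 w (rep cs7 h7 w⁻¹ x) (sr i)
  rw [← h2]
  congr 1
  exact rep_apply_inv cs7 h7 w x

/-- the reflections -/
theorem exists_refl {a : Fin 7 → ℤ} (ha : IsRoot cs7 h7 a) : ∃ s : W7, nu K s = nN a ∧
    ∀ x, rep cs7 h7 s x = x - bf x a • a := by
  obtain ⟨w, i, rfl⟩ := ha
  refine ⟨w * cs7.simple i * w⁻¹, ?_, fun x => ?_⟩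
  · rw [map_mul, map_mul, map_inv, nu_simple, ← nu_nN w (isRoot_sr cs7 h7 i), ← sl_nN, sl_ww]
  · rw [rep_mul_apply, rep_mul_apply, TorC.rep_simple_eq, map_sub, map_zsmul, TorC.pa_apply, pairing_eq_bf,
      rep_apply_inv]
    congr 2
    have h2 := Cfsg.Agent.H904.E7Main.bf_rep cs7 w (rep cs7 h7 w⁻¹ x) (sr i)
    rw [← h2]
    congr 1
    exact rep_apply_inv cs7 h7 w x

end K

end Cfsg.Agent.R2.H27.UsB
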