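import Cfsg.Agent.R2.H27.UsD

/-!
# The centraliser of `z` in the twisted form of `E₇(4)` (S5934, box T7; helper27)

* `cent_T` : `C(T) ≤ T`;
* `eq_zz` : the condition on the cyclic subgroups of the torus normalised by `C(z)`;
* `three_ten` : `3 ^ 10 ∣ |C(z)|`.
-/

set_option autoImplicit false
set_option linter.unusedSectionVars false
set_option maxRecDepth 100000

namespace Cfsg.Agent.R2.H27.UsE

open CoxeterSystem Cfsg Cfsg.Lie Cfsg.Lie.ChevalleyDatum
open Cfsg.Agent.ChevalleyStructure Cfsg.Agent.ChevalleyStructure.Elts Cfsg.Agent.ChevalleyStructure.CoxeterGeom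
  Cfsg.Agent.ChevalleyStructure.CoxeterGeomTypes
open Cfsg.Agent.Tits.Roots Cfsg.Agent.Tits.Core Cfsg.Agent.Nodes Cfsg.Agent.Nodes.Reps Cfsg.Agent.Nodes.BNOf
  Cfsg.Agent.Nodes.RGDChev Cfsg.Agent.Nodes.Bruhat
open Cfsg.Agent.KFacts.RgdField Cfsg.Agent.KFacts.RgdChevCoord
open Cfsg.Agent.H129.TorusChar
open Cfsg.Agent.BpExc.TorChev
open Cfsg.Agent.H904.E7Form
open Cfsg.Agent.R2.H27.Par Cfsg.Agent.R2.H27.WeylE7 Cfsg.Agent.R2.H27.UsA Cfsg.Agent.R2.H27.UsB Cfsg.Agent.R2.H27.UsC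
  Cfsg.Agent.R2.H27.UsD
open Matrix (SpecialLinearGroup)
open Subgroup

section K

variable {K : Type} [Field K] [Fintype K] [CharP K 2]

/-- torus elements from functionals -/
theorem exists_T {ζ : K} (hζ : ζ ^ 3 = 1) (f : (Fin 7 → ℤ) →+ ℤ) : ∃ t ∈ T K, ∀ x, cX hp7 t x = ζ ^ f x := by
  have h0 : ζ ≠ 0 := by
    rintro rfl
    simp at hζ
  have hφ : IsMC (fun x => ζ ^ f x) := ⟨by rw [map_zero, zpow_zero], fun x y => by rw [map_add, zpow_add₀ h0]⟩
  exact exists_cX hp7 invC_E7 two_ne_zero hφ fun i => Cfsg.Agent.R2.E72T.exists_sqrt _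

theorem T_comm' {s t : Y K} (hs : s ∈ T K) (ht : t ∈ T K) : s * t = t * s := TT_comm hp7 s hs t ht

theorem exists_ne {ζ : K} (hζ : IsPrimitiveRoot ζ 3) {a : Fin 7 → ℤ} (ha : IsRoot cs7 h7 a) :
    ∃ t ∈ T K, cX hp7 t a ≠ 1 := by
  obtain ⟨r, hr, rfl⟩ := TorB.exists_vec ha
  obtain ⟨i, hi⟩ := TorB.roots_ne r hr
  obtain ⟨t, ht, h1⟩ := exists_T hζ.pow_eq_one (TorB.co i)
  refine ⟨t, ht, ?_⟩
  rw [h1, TorB.co_apply]
  intro h2
  apply hi
  exact (zpow_one_iff hζ _).1 h2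

theorem eq_one_of_cX {ζ : K} (hζ : IsPrimitiveRoot ζ 3) {w : W7}
    (hw : ∀ t ∈ T K, ∀ a, IsRoot cs7 h7 a → cX hp7 t (rep cs7 h7 w a) = cX hp7 t a) : w = 1 := by
  have h1 : ∀ a, IsRoot cs7 h7 a → rep cs7 h7 w a = a := by
    intro a ha
    obtain ⟨r, hr, h2⟩ := TorB.exists_vec (ha.act w)
    obtain ⟨s, hs, h3⟩ := TorB.exists_vec ha
    have h4 : r = s := by
      refine TorB.roots_mod r hr s hs fun i => ?_
      obtain ⟨t, ht, h5⟩ := exists_T hζ.pow_eq_one (TorB.co i)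
      have h6 := hw t ht a ha
      rw [h5, h5, zpow_eq_iff hζ, TorB.co_apply, TorB.co_apply, h2, h3] at h6
      exact h6
    rw [h2, h4, ← h3]
  apply rep_injective cs7 h7
  apply LinearMap.ext
  intro x
  rw [map_one, Module.End.one_apply]
  conv_lhs => rw [Cfsg.Agent.H154.PQE.sum_sr x]
  conv_rhs => rw [Cfsg.Agent.H154.PQE.sum_sr x]
  rw [map_sum]
  refine Finset.sum_congr rfl fun k _ => ?_
  rw [map_smul, h1 _ (isRoot_sr cs7 h7 k)]

/-- **`C(T) = T`** -/
theorem cent_T (hK : Fintype.card K = 4) : centralizer (T K : Set (Y K)) = T K := by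
  obtain ⟨ζ, hζ⟩ := exists_zeta hK
  apply le_antisymm
  · intro c hc
    exact TorA.mem_TT_of_centralizer hp7 cs7 (lfK K) 2 (Set.toFinite _) (fun _ h => h) (fun a ha => exists_ne hζ ha)
      (fun w hw => eq_one_of_cX hζ hw) hc
  · intro c hc
    rw [mem_centralizer_iff]
    intro t ht
    exact T_comm' ht hc

theorem nu_mem_T (hK : Fintype.card K = 4) {w : W7} (h : nu K w ∈ T K) : w = 1 := by
  obtain ⟨ζ, hζ⟩ := exists_zeta hK
  refine eq_one_of_cX hζ fun t ht a ha => ?_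
  have h1 := cX_nu w ht a
  have h2 : nu K w * t * (nu K w)⁻¹ = t := by
    rw [T_comm' h ht]; group
  rwa [h2] at h1

theorem nu_injective (hK : Fintype.card K = 4) : Function.Injective (nu K) := by
  rw [← MonoidHom.ker_eq_bot_iff, eq_bot_iff]
  intro w hw
  rw [mem_bot]
  apply nu_mem_T hK
  rw [MonoidHom.mem_ker.1 hw]
  exact one_mem _

theorem card_T (hK : Fintype.card K = 4) : Nat.card ↥(T K) = 3 ^ 7 := by
  have h1 := Cfsg.Agent.S1035.result (F := K) hK (chevE7, Nat.gcd 2 (4 - 1)) (by simp)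
  have h2 : Nat.card (chevE7.diagonalSubgroup K) = 3 ^ 7 := by
    have e : Nat.gcd 2 (4 - 1) = 1 := by decide
    simp only [e, one_mul] at h1
    exact h1
  rw [← h2]
  exact Nat.card_congr (Subgroup.subgroupOfEquivOfLe (Cfsg.Agent.ChevalleyStructure.Elts.diagonal_le_group hp7.inList K)).toEquiv

/-- reflections belonging to `A₅ + A₂` are in `C(z)` -/
theorem nN_comm {ζ : K} (hζ : IsPrimitiveRoot ζ 3) {r : ℕ} (hr : r ∈ LL) :
    nN (rv r) * f6 K (z6 ζ) = f6 K (z6 ζ) * nN (rv r) := by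
  rcases LL_cases r hr with ⟨a, b, hab, rfl⟩ | ⟨a, b, hab, rfl⟩
  · rw [← f6_n6 hab]
    exact z6_comm6 hζ _
  · rw [← f3_n3 hab]
    exact z6_comm3 hζ _

theorem nu_refl {s : W7} {r : ℕ} (hr : r < 126) (hs : IsRefl s (rv r)) : nu K s = nN (rv r) := by
  obtain ⟨s', h1, h2⟩ := exists_refl (K := K) (isRoot_rv hr)
  have h3 : s = s' := rep_inj fun x => by rw [hs, h2]
  rw [h3, h1]

theorem exists_refl' {r : ℕ} (hr : r < 126) : ∃ s : W7, IsRefl s (rv r) ∧ nu K s = nN (rv r) := by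
  obtain ⟨s, h1, h2⟩ := exists_refl (K := K) (isRoot_rv hr)
  exact ⟨s, h2, h1⟩

theorem LL_lt {r : ℕ} (hr : r ∈ LL) : r < 126 := (LL_tab r hr).1

/-- `C(z)` in the group of fixed points -/
noncomputable abbrev CZ (ζ : K) : Subgroup (Y K) := centralizer {f6 K (z6 ζ)} ⊓ P4 K

theorem T_le_CZ (hK : Fintype.card K = 4) {ζ : K} (hζ : IsPrimitiveRoot ζ 3) : T K ≤ CZ ζ := by
  refine le_inf ?_ (T_le hK)
  intro t ht
  rw [mem_centralizer_singleton_iff]
  exact T_comm' ht (z6_mem (hζ.ne_zero (by norm_num)))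

theorem nu_mem_CZ {ζ : K} (hζ : IsPrimitiveRoot ζ 3) {s : W7} {r : ℕ} (hr : r ∈ LL) (hs : IsRefl s (rv r)) :
    nu K s ∈ CZ ζ := by
  refine ⟨?_, nu_mem_P4 s⟩
  show nu K s ∈ centralizer {f6 K (z6 ζ)}
  rw [mem_centralizer_singleton_iff, nu_refl (LL_lt hr) hs]
  exact nN_comm hζ hr

/-- **`3 ^ 10 ∣ |C(z)|`** -/
theorem three_ten (hK : Fintype.card K = 4) {ζ : K} (hζ : IsPrimitiveRoot ζ 3) : 3 ^ 10 ∣ Nat.card ↥(CZ ζ) := by
  obtain ⟨V, hV, hV2⟩ := exists_V
  have h1 : V ≤ (CZ ζ).comap (nu K) := hV2 _ fun s r hr hs => nu_mem_CZ hζ hr hs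
  have h2 : V.map (nu K) ≤ CZ ζ := Subgroup.map_le_iff_le_comap.2 h1
  have h3 : V.map (nu K) ≤ normalizer ((T K : Subgroup (Y K)) : Set (Y K)) := by
    rintro _ ⟨w, -, rfl⟩
    exact (rp_nu w).mem_normalizer
  have h4 : T K ⊓ V.map (nu K) = ⊥ := by
    rw [eq_bot_iff]
    rintro _ ⟨ht, w, -, rfl⟩
    rw [mem_bot, nu_mem_T hK ht, map_one]
  have h5 : Nat.card ↥(T K ⊔ V.map (nu K) : Subgroup (Y K)) = 3 ^ 10 := by
    rw [TorD.card_sup_norm h3 h4, card_T hK,
      ← Nat.card_congr (V.equivMapOfInjective (nu K) (nu_injective hK)).toEquiv, hV]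
    norm_num
  rw [← h5]
  exact Subgroup.card_dvd_of_le (sup_le (T_le_CZ hK hζ) h2)

/-! ### the condition on cyclic subgroups -/

theorem pow_three_T (hK : Fintype.card K = 4) {e : Y K} (he : e ∈ T K) (x : Fin 7 → ℤ) : cX hp7 e x ^ 3 = 1 :=
  pow_three hK ((isMC_cX hp7 he).ne_zero x)

theorem T_pow_three (hK : Fintype.card K = 4) {e : Y K} (he : e ∈ T K) : e ^ 3 = 1 := by
  refine cX_inj hp7 (pow_mem he 3) (one_mem _) fun i => ?_
  rw [cX_pow hp7 he, pow_three_T hK he, cX_one]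

theorem cX_sub {e : Y K} (he : e ∈ T K) (x : Fin 7 → ℤ) (m : ℤ) (a : Fin 7 → ℤ) :
    cX hp7 e (x - m • a) = cX hp7 e x * (cX hp7 e a ^ m)⁻¹ := by
  rw [(isMC_cX hp7 he).sub, (isMC_cX hp7 he).zsmul, div_eq_mul_inv]

theorem isPGroup_T (hK : Fintype.card K = 4) : IsPGroup 3 ↥(T K) := by
  rw [IsPGroup.iff_card]
  exact ⟨7, card_T hK⟩

/-- **The condition on the cyclic subgroups of the torus normalised by `C(z)`.** -/
theorem eq_zz (hK : Fintype.card K = 4) {ζ : K} (hζ : IsPrimitiveRoot ζ 3) {e : Y K} (he : e ∈ T K) (he1 : e ≠ 1)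
    (hn : CZ ζ ≤ normalizer (zpowers e : Set (Y K))) : zpowers e = zpowers (f6 K (z6 ζ)) := by
  have h0 : ζ ≠ 0 := hζ.ne_zero (by norm_num)
  have he3 := T_pow_three hK he
  have hord : orderOf e = 3 := orderOf_eq_prime he3 he1
  -- the alternatives
  have alt : ∀ r ∈ LL, cX hp7 e (rv r) = 1 ∨ ∀ x, bf x (rv r) = 0 → cX hp7 e x = 1 := by
    intro r hr
    obtain ⟨s, hs, -⟩ := exists_refl' (K := K) (LL_lt hr)
    have h1 := hn (nu_mem_CZ hζ hr hs)
    have h2 : nu K s * e * (nu K s)⁻¹ ∈ zpowers e := ((mem_normalizer_iff.1 h1) e).1 (mem_zpowers e)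
    obtain ⟨k, hk⟩ := mem_zpowers_iff.1 h2
    have h3 : ∀ x, cX hp7 e x = cX hp7 e (rep cs7 h7 s x) ^ k := by
      intro x
      rw [← cX_nu s he x, ← hk]
      have : ∀ m : ℤ, cX hp7 (e ^ m) (rep cs7 h7 s x) = cX hp7 e (rep cs7 h7 s x) ^ m := by
        intro m
        rcases Int.eq_nat_or_neg m with ⟨n, rfl | rfl⟩
        · rw [zpow_natCast, zpow_natCast, cX_pow hp7 he]
        · rw [zpow_neg, zpow_neg, zpow_natCast, zpow_natCast, cX_inv (pow_mem he n), cX_pow hp7 he]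
      exact this k
    obtain ⟨-, r', -, -, y, hy, hy1, -⟩ := LL_tab r hr
    have h3' : ∀ x, bf x (rv r) = 0 → cX hp7 e x = cX hp7 e x ^ k := by
      intro x hx
      have := h3 x
      rwa [refl_fix hs hx] at this
    have hmod : k % 3 = 0 ∨ k % 3 = 1 ∨ k % 3 = 2 := by omega
    have hred : ∀ x, cX hp7 e x ^ k = cX hp7 e x ^ (k % 3) := by
      intro x
      have hx0 := (isMC_cX hp7 he).ne_zero x
      conv_lhs => rw [← Int.emod_add_mul_ediv k 3]
      rw [zpow_add₀ hx0, zpow_mul]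
      have : cX hp7 e x ^ (3 : ℤ) = 1 := by
        have := pow_three_T hK he x
        exact_mod_cast this
      rw [this, one_zpow, mul_one]
    rcases hmod with hm | hm | hm
    · right
      intro x hx
      rw [h3' x hx, hred, hm, zpow_zero]
    · left
      have h4 := h3 (rv y)
      rw [hred, hm, zpow_one, hs, hy1, cX_sub he, zpow_one] at h4
      have h5 := (isMC_cX hp7 he).ne_zero (rv y)
      have h6 : (cX hp7 e (rv r))⁻¹ = 1 := by
        have : cX hp7 e (rv y) * 1 = cX hp7 e (rv y) * (cX hp7 e (rv r))⁻¹ := by rw [mul_one]; exact h4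
        exact (mul_left_cancel₀ h5 this).symm
      exact inv_eq_one.1 h6
    · right
      intro x hx
      have h4 := h3' x hx
      rw [hred, hm] at h4
      have h5 := (isMC_cX hp7 he).ne_zero x
      have h6 : cX hp7 e x * 1 = cX hp7 e x * cX hp7 e x := by
        rw [mul_one]
        conv_lhs => rw [h4]
        rw [show (2 : ℤ) = ((2 : ℕ) : ℤ) from rfl, zpow_natCast, pow_two]
      exact (mul_left_cancel₀ h5 h6).symm
  -- the second alternative does not occur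
  have key : ∀ r ∈ LL, cX hp7 e (rv r) = 1 := by
    intro r hr
    rcases alt r hr with h | h
    · exact h
    exfalso
    apply he1
    obtain ⟨-, r', hr', hadj, y, hy, hy1, hy2⟩ := LL_tab r hr
    refine cX_inj hp7 he (one_mem _) fun i => ?_
    rw [cX_one]
    rcases alt r' hr' with h' | h'
    · have h1 := h (sr i - (-bf (sr i) (rv r)) • rv r') (by
        rw [bf_sub', bf_smul', hadj]; ring)
      rw [cX_sub he, h', one_zpow, inv_one, mul_one] at h1
      exact h1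
    · have h2 := h' (rv y) hy2
      have h1 := h (sr i - bf (sr i) (rv r) • rv y) (by
        rw [bf_sub', bf_smul', hy1]; ring)
      rw [cX_sub he, h2, one_zpow, inv_one, mul_one] at h1
      exact h1
  -- the conclusion
  obtain ⟨m, -, hm⟩ := hζ.eq_pow_of_pow_eq_one (pow_three_T hK he (sr 4))
  have hz := z6_mem (K := K) h0
  have h5 : e = f6 K (z6 ζ) ^ (2 * m) := by
    refine cX_inj hp7 he (pow_mem hz _) fun i => ?_
    rw [cX_pow hp7 hz, cX_z6 h0]
    by_cases hi : i = 4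
    · subst hi
      rw [← hm, ← zpow_natCast, ← zpow_natCast, ← zpow_mul, zpow_eq_iff hζ]
      have := fz4
      push_cast
      have h6 : fz (sr 4) = 3 * (fz (sr 4) / 3) + 2 := by omega
      rw [h6]
      ring_nf
      omega
    · rw [← vec_simple hp7 i, key _ (LL_simple i hi), vec_simple hp7 i, (zpow_one_iff hζ _).2 (fz_simple i hi), one_pow]
  have h6 : e ∈ zpowers (f6 K (z6 ζ)) := by
    rw [h5]
    exact pow_mem (mem_zpowers _) _
  refine Subgroup.eq_of_le_of_card_ge (zpowers_le.2 h6) ?_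
  rw [Nat.card_zpowers, Nat.card_zpowers, hord, z6_order hζ]

end K

end Cfsg.Agent.R2.H27.UsE
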