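import Cfsg.Agent.R2.H27.ParCent
import Cfsg.Agent.R2.H27.ParCard
import Cfsg.Agent.Lib.Cores
import Cfsg.Agent.S1054
import Cfsg.Agent.S1063

/-!
# S5934, assembly: utilities (helper27)
-/

set_option autoImplicit false

namespace Cfsg.Agent.R2.H27.Asm

open Subgroup
open scoped commutatorElement Pointwise

universe u

section Gen

variable {G : Type*} [Group G]

theorem simple_congr {A B : Type*} [Group A] [Group B] (e : A ≃* B) (h : IsSimpleGroup A) : IsSimpleGroup B :=
  (e.symm.isSimpleGroup)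

theorem card_subgroupOf {X M : Subgroup G} (h : X ≤ M) : Nat.card ↥(X.subgroupOf M) = Nat.card ↥X :=
  Nat.card_congr (Subgroup.subgroupOfEquivOfLe h).toEquiv

theorem simple_subgroupOf {X M : Subgroup G} (h : X ≤ M) (hX : IsSimpleGroup ↥X) : IsSimpleGroup ↥(X.subgroupOf M) :=
  simple_congr (Subgroup.subgroupOfEquivOfLe h).symm hX

theorem centralizer_subgroupOf {X M : Subgroup G} (h : X ≤ M) :
    centralizer ((X.subgroupOf M : Subgroup ↥M) : Set ↥M) = (centralizer (X : Set G)).subgroupOf M := by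
  ext g
  rw [mem_centralizer_iff, mem_subgroupOf, mem_centralizer_iff]
  constructor
  · intro h1 x hx
    exact congrArg Subtype.val (h1 ⟨x, h hx⟩ hx)
  · intro h1 x hx
    exact Subtype.ext (h1 x hx)

theorem card_centralizer_dvd {X M : Subgroup G} (h : X ≤ M) :
    Nat.card (centralizer ((X.subgroupOf M : Subgroup ↥M) : Set ↥M) : Subgroup ↥M) ∣
      Nat.card (centralizer (X : Set G) : Subgroup G) := by
  rw [centralizer_subgroupOf h]
  exact Subgroup.card_comap_dvd_of_injective _ M.subtype M.subtype_injective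

theorem perfect_subgroupOf {X M : Subgroup G} (h : X ≤ M) (hX : ⁅X, X⁆ = X) :
    ⁅X.subgroupOf M, X.subgroupOf M⁆ = X.subgroupOf M := by
  apply Subgroup.map_injective M.subtype_injective
  rw [Subgroup.map_commutator, Subgroup.subgroupOf_map_subtype, inf_eq_left.2 h, hX]

noncomputable def centerCongr {A B : Type*} [Group A] [Group B] (e : A ≃* B) :
    (A ⧸ center A) ≃* (B ⧸ center B) :=
  QuotientGroup.congr (center A) (center B) e (by
    ext b
    constructor
    · rintro ⟨a, ha, rfl⟩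
      rw [Subgroup.mem_center_iff]
      intro g
      obtain ⟨g', rfl⟩ := e.surjective g
      show e g' * e a = e a * e g'
      rw [← map_mul, ← map_mul, (Subgroup.mem_center_iff.1 ha) g']
    · intro hb
      refine ⟨e.symm b, ?_, by simp⟩
      show e.symm b ∈ center A
      rw [Subgroup.mem_center_iff]
      intro g
      apply e.injective
      rw [map_mul, map_mul, e.apply_symm_apply]
      exact (Subgroup.mem_center_iff.1 hb) (e g))

theorem card_center_congr {A B : Type*} [Group A] [Group B] (e : A ≃* B) :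
    Nat.card ↥(center A) = Nat.card ↥(center B) := by
  refine Nat.card_congr (Subgroup.centerCongr e).toEquiv

theorem quasi_subgroupOf {X M : Subgroup G} (h : X ≤ M) (hX : IsSimpleGroup (↥X ⧸ center ↥X)) :
    IsSimpleGroup (↥(X.subgroupOf M) ⧸ center ↥(X.subgroupOf M)) :=
  simple_congr (centerCongr (Subgroup.subgroupOfEquivOfLe h).symm) hX

theorem card_center_subgroupOf {X M : Subgroup G} (h : X ≤ M) :
    Nat.card ↥(center ↥(X.subgroupOf M)) = Nat.card ↥(center ↥X) :=
  card_center_congr (Subgroup.subgroupOfEquivOfLe h)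

theorem dvd_card_of_le {X M : Subgroup G} (h : X ≤ M) : Nat.card ↥X ∣ Nat.card ↥M := Subgroup.card_dvd_of_le h

/-- commuting subgroups with trivial intersection -/
theorem card_sup_comm {X Y : Subgroup G} (hc : Y ≤ centralizer (X : Set G)) (hd : X ⊓ Y = ⊥) :
    Nat.card ↥(X ⊔ Y : Subgroup G) = Nat.card ↥X * Nat.card ↥Y := by
  have h1 : ∀ x ∈ X, ∀ y ∈ Y, x * y = y * x := fun x hx y hy => (mem_centralizer_iff.1 (hc hy)) x hx
  have h2 : Y ≤ normalizer (X : Set G) := le_trans hc (Subgroup.centralizer_le_normalizer _)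
  have h3 : ((X ⊔ Y : Subgroup G) : Set G) = (X : Set G) * Y := by
    rw [Subgroup.coe_mul_of_right_le_normalizer_left _ _ h2]
  refine (Nat.card_congr (Equiv.ofBijective (fun p : ↥X × ↥Y => (⟨p.1.1 * p.2.1,
    mul_mem (le_sup_left (a := X) p.1.2) (le_sup_right (a := X) p.2.2)⟩ : ↥(X ⊔ Y : Subgroup G))) ⟨?_, ?_⟩)).symm.trans
    (Nat.card_prod _ _)
  · rintro ⟨a, b⟩ ⟨c, d⟩ he
    have he' : (a : G) * b = c * d := congrArg Subtype.val he
    have h4 : (c : G)⁻¹ * a = d * (b : G)⁻¹ := by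
      rw [inv_mul_eq_iff_eq_mul, ← mul_assoc, ← he', mul_assoc, mul_inv_cancel, mul_one]
    have h5 : (c : G)⁻¹ * a ∈ X ⊓ Y := by
      refine ⟨X.mul_mem (X.inv_mem c.2) a.2, ?_⟩
      rw [h4]
      exact Y.mul_mem d.2 (Y.inv_mem b.2)
    rw [hd, mem_bot] at h5
    have h6 : (a : G) = c := by rw [← mul_one (c : G), ← h5]; group
    have h7 : (b : G) = d := by
      rw [h6] at he'
      exact mul_left_cancel he'
    exact Prod.ext (Subtype.ext h6) (Subtype.ext h7)
  · rintro ⟨g, hg⟩
    have hg' : g ∈ ((X ⊔ Y : Subgroup G) : Set G) := hg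
    rw [h3, Set.mem_mul] at hg'
    obtain ⟨x, hx, y, hy, rfl⟩ := hg'
    exact ⟨(⟨x, hx⟩, ⟨y, hy⟩), rfl⟩

theorem inf_centralizer_bot {X : Subgroup G} (hX : IsSimpleGroup ↥X) (hn : ¬ ∀ a b : ↥X, a * b = b * a) :
    X ⊓ centralizer (X : Set G) = ⊥ := by
  have h1 : center ↥X = ⊥ := by
    rcases (inferInstance : (center ↥X).Normal).eq_bot_or_eq_top with h | h
    · exact h
    · exfalso
      apply hn
      intro a b
      have : b ∈ center ↥X := by rw [h]; exact mem_top _
      exact (Subgroup.mem_center_iff.1 this) a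
  rw [eq_bot_iff]
  rintro x ⟨hx, hc⟩
  have h2 : (⟨x, hx⟩ : ↥X) ∈ center ↥X := by
    rw [Subgroup.mem_center_iff]
    intro g
    exact Subtype.ext (mem_centralizer_iff.1 hc g g.2)
  rw [h1, mem_bot] at h2
  exact congrArg Subtype.val h2

/-- a simple group of composite order is not abelian -/
theorem not_comm_of_card {X : Type*} [Group X] [Finite X] (hX : IsSimpleGroup X) {a b : ℕ} (ha : a.Prime) (hb : b.Prime)
    (hab : a ≠ b) (h1 : a ∣ Nat.card X) (h2 : b ∣ Nat.card X) : ¬ ∀ x y : X, x * y = y * x := by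
  intro hc
  letI : CommGroup X := { (inferInstance : Group X) with mul_comm := hc }
  have h3 : (Nat.card X).Prime := by
    have := IsSimpleGroup.prime_card (α := X)
    exact this
  rw [Nat.prime_dvd_prime_iff_eq ha h3] at h1
  rw [Nat.prime_dvd_prime_iff_eq hb h3] at h2
  exact hab (h1.trans h2.symm)

/-- two normal subgroups, one of them simple and not a `p`-group -/
theorem pCore_le_centralizer {M : Type*} [Group M] [Finite M] {p : ℕ} [hp : Fact p.Prime] {X : Subgroup M}
    (hX : IsSimpleGroup ↥X) (hn : X.Normal) {q : ℕ} (hq : q.Prime) (hqp : q ≠ p) (hqX : q ∣ Nat.card ↥X) :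
    Cfsg.pCore p M ≤ centralizer (X : Set M) := by
  have h1 : (Cfsg.pCore p M).Normal := Cfsg.Agent.Lib.Cores.pCore_normal p
  have h2 : Cfsg.pCore p M ⊓ X = ⊥ := by
    have h3 : ((Cfsg.pCore p M).subgroupOf X).Normal := inferInstance
    rcases h3.eq_bot_or_eq_top with h | h
    · rw [Subgroup.subgroupOf_eq_bot] at h
      exact h.eq_bot
    · exfalso
      rw [Subgroup.subgroupOf_eq_top] at h
      have h4 : IsPGroup p ↥X := (Cfsg.Agent.Lib.Cores.pCore_isPGroup p).to_le h
      obtain ⟨n, hn'⟩ := (IsPGroup.iff_card (p := p)).1 h4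
      rw [hn'] at hqX
      exact hqp ((Nat.prime_dvd_prime_iff_eq hq hp.out).1 (hq.dvd_of_dvd_pow hqX))
  intro x hx
  rw [mem_centralizer_iff]
  intro y hy
  have h5 : ⁅x, y⁆ ∈ Cfsg.pCore p M ⊓ X := by
    refine ⟨?_, ?_⟩
    · have := mul_mem hx (h1.conj_mem _ (inv_mem hx) y)
      have e : ⁅x, y⁆ = x * (y * x⁻¹ * y⁻¹) := by rw [commutatorElement_def]; group
      rw [e]; exact this
    · rw [commutatorElement_def]
      exact X.mul_mem (hn.conj_mem _ hy x) (X.inv_mem hy)
  rw [h2, mem_bot, commutatorElement_eq_one_iff_mul_comm] at h5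
  exact h5.symm

theorem exists_orderOf {X : Type*} [Group X] [Finite X] {q : ℕ} (hq : q.Prime) (h : q ∣ Nat.card X) :
    ∃ x : X, orderOf x = q := by
  haveI := Fact.mk hq
  exact exists_prime_orderOf_dvd_card' q h

end Gen

/-! ### `G7` -/

theorem simple_G7 : IsSimpleGroup G7 := (Cfsg.Agent.S1054.result (F := ZMod 2) Cfsg.Lie.chevE7 (by simp)).1

theorem exists_max {K : Subgroup G7} (h1 : K ≠ ⊥) (h2 : K ≠ ⊤) :
    ∃ M : Subgroup G7, IsCoatom M ∧ normalizer (K : Set G7) ≤ M := by
  have hs := simple_G7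
  have h3 : normalizer (K : Set G7) ≠ ⊤ := by
    intro h
    have h4 : K.Normal := Subgroup.normalizer_eq_top_iff.1 h
    rcases h4.eq_bot_or_eq_top with h5 | h5
    · exact h1 h5
    · exact h2 h5
  obtain h | h := eq_top_or_exists_le_coatom (normalizer (K : Set G7))
  · exact absurd h h3
  · exact h

/-- similarity of subgroups -/
def Sim {G : Type*} [Group G] (M M' : Subgroup G) : Prop := ∃ g : G, M.map (MulAut.conj g).toMonoidHom = M'

/-- order of `O₃` -/
noncomputable def pc {G : Type*} [Group G] (M : Subgroup G) : ℕ := Nat.card ↥(Cfsg.pCore 3 ↥M)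

theorem card_pCore_congr {A B : Type*} [Group A] [Group B] (e : A ≃* B) (p : ℕ) :
    Nat.card ↥(Cfsg.pCore p A) = Nat.card ↥(Cfsg.pCore p B) := by
  have h1 := Cfsg.Agent.Lib.Cores.map_equiv_pCore e p
  have h2 : Nat.card ↥(Cfsg.pCore p A) = Nat.card ↥((Cfsg.pCore p A).map e.toMonoidHom) :=
    Nat.card_congr ((Cfsg.pCore p A).equivMapOfInjective e.toMonoidHom e.injective).toEquiv
  rw [h2, h1]

section SimG

variable {G : Type*} [Group G]

theorem Sim.symm {M M' : Subgroup G} (h : Sim M M') : Sim M' M := by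
  obtain ⟨g, rfl⟩ := h
  refine ⟨g⁻¹, ?_⟩
  rw [Subgroup.map_map]
  have h3 : (MulAut.conj g⁻¹).toMonoidHom.comp (MulAut.conj g).toMonoidHom = MonoidHom.id G := by
    ext x
    simp [mul_assoc]
  rw [h3, Subgroup.map_id]

theorem Sim.equiv {M M' : Subgroup G} (h : Sim M M') : Nonempty (↥M ≃* ↥M') := by
  obtain ⟨g, rfl⟩ := h
  exact ⟨M.equivMapOfInjective _ (MulAut.conj g).injective⟩

theorem Sim.card {M M' : Subgroup G} (h : Sim M M') : Nat.card ↥M = Nat.card ↥M' := by
  obtain ⟨e⟩ := h.equiv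
  exact Nat.card_congr e.toEquiv

theorem Sim.pc {M M' : Subgroup G} (h : Sim M M') : pc M = pc M' := by
  obtain ⟨e⟩ := h.equiv
  exact card_pCore_congr e 3

theorem Sim.conj (M : Subgroup G) (g : G) : Sim M (M.map (MulAut.conj g).toMonoidHom) := ⟨g, rfl⟩

end SimG

/-- homomorphism with kernel a `2`-group -/
def HasHom (P E : Type*) [Group P] [Group E] : Prop := ∃ f : P →* E, IsPGroup 2 ↥f.ker

/-- box P6 -/
def BoxP6 : Prop := HasHom ↥(Par.P7 6) ↥(Cfsg.Lie.chevE6.group (ZMod 2))

/-- non-parabolic maximal subgroups -/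
structure NP (M : Subgroup G7) : Prop where
  co : IsCoatom M
  np : ∀ j, ¬ Sim (Par.P7 j) M

theorem card_G7 : Nat.card G7 = N7 := Par.card_G7

theorem NP.core {M : Subgroup G7} (h : NP M) : Cfsg.pCore 2 ↥M = ⊥ := by
  by_contra hne
  obtain ⟨j, g, hg⟩ := Par.borelTits h.co hne
  exact h.np j ⟨g, hg.symm⟩

theorem NP.ctx {M : Subgroup G7} (h : NP M) (h0 : BoxX0) : Ctx ↥M :=
  { h0 M with
    core := h.core
    ne := fun he => h.co.1 (Subgroup.eq_top_of_card_eq M (he.trans card_G7.symm)) }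

theorem card_E6 : Nat.card ↥(Cfsg.Lie.chevE6.group (ZMod 2)) = oE6 := by
  have h1 := Cfsg.Agent.S1063.result (F := ZMod 2) (q := 2) (by simp [ZMod.card])
  have h2 : Nat.gcd 3 (2 - 1) = 1 := by decide
  rw [h2, one_mul] at h1
  rw [h1]
  unfold oE6
  norm_num

end Cfsg.Agent.R2.H27.Asm
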